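import Mathlib.GroupTheory.Transfer
import Cfsg.Agent.FGS75.SelfNorm.Reverse

/-!
Simple groups with element orders `1, 2, p, r, 2p` in which elements of equal order are
conjugate under automorphisms: first consequences.
-/

set_option autoImplicit false

namespace Cfsg.Agent.FiveOrbit

open Subgroup

/-- The standing hypothesis. -/
structure Hyp (G : Type*) [Group G] (p r : ℕ) : Prop where
  hp : p.Prime
  hr : r.Prime
  p2 : p ≠ 2
  r2 : r ≠ 2
  pr : p ≠ r
  orders : ∀ g : G, orderOf g = 1 ∨ orderOf g = 2 ∨ orderOf g = p ∨ orderOf g = r ∨ orderOf g = 2 * p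
  aut : ∀ x y : G, orderOf x = orderOf y → ∃ φ : MulAut G, φ x = y
  ex2p : ∃ g : G, orderOf g = 2 * p
  exr : ∃ g : G, orderOf g = r

section General

variable {G : Type*} [Group G]

theorem mul_self_of_orderOf {x : G} (h : orderOf x = 2) : x * x = 1 := by
  rw [← pow_two, ← h, pow_orderOf_eq_one]

theorem inv_of_orderOf {x : G} (h : orderOf x = 2) : x⁻¹ = x :=
  inv_eq_of_mul_eq_one_right (mul_self_of_orderOf h)

theorem orderOf_two {x : G} (h : x * x = 1) (h1 : x ≠ 1) : orderOf x = 2 :=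
  orderOf_eq_prime (by rw [pow_two, h]) h1

theorem orderOf_conj (g x : G) : orderOf (g * x * g⁻¹) = orderOf x :=
  orderOf_injective (MulAut.conj g).toMonoidHom (MulAut.conj g).injective x

theorem ne_one_of_orderOf {x : G} {n : ℕ} (h : orderOf x = n) (hn : 1 < n) : x ≠ 1 := fun e => by
  rw [e, orderOf_one] at h; omega

theorem Commute.conj' {x y : G} (h : Commute x y) (g : G) :
    Commute (g * x * g⁻¹) (g * y * g⁻¹) := by
  simpa only [MulAut.conj_apply] using h.map (MulAut.conj g)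

theorem exists_conj_sylow [Finite G] {q : ℕ} [Fact q.Prime] (S : Sylow q G) {P : Subgroup G}
    (hP : IsPGroup q P) : ∃ g : G, ∀ x ∈ P, g * x * g⁻¹ ∈ (S : Subgroup G) := by
  obtain ⟨T, hT⟩ := hP.exists_le_sylow
  obtain ⟨g, rfl⟩ := MulAction.exists_smul_eq G T S
  refine ⟨g, fun x hx => ?_⟩
  rw [Sylow.coe_subgroup_smul]
  exact Subgroup.mem_pointwise_smul_iff_inv_smul_mem.mpr (by simpa [mul_assoc] using hT hx)

theorem exists_pgroup_in [Finite G] {q : ℕ} [Fact q.Prime] {H P Q : Subgroup G}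
    (hP : IsPGroup q P) (hQ : IsPGroup q Q) (hPH : P ≤ H) (hQH : Q ≤ H) :
    ∃ T : Subgroup G, T ≤ H ∧ IsPGroup q T ∧ Q ≤ T ∧ ∃ c ∈ H, ∀ x ∈ P, c * x * c⁻¹ ∈ T := by
  obtain ⟨T, hT⟩ := (hQ.comap_subtype (K := H)).exists_le_sylow
  obtain ⟨c, hc⟩ := exists_conj_sylow T (hP.comap_subtype (K := H))
  refine ⟨(T : Subgroup H).map H.subtype, map_subtype_le _, T.isPGroup'.map _, ?_, (c : G), c.2, ?_⟩
  · intro x hx
    exact ⟨⟨x, hQH hx⟩, hT (show (⟨x, hQH hx⟩ : H) ∈ Q.subgroupOf H from hx), rfl⟩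
  · intro x hx
    exact ⟨c * ⟨x, hPH hx⟩ * c⁻¹, hc ⟨x, hPH hx⟩ hx, rfl⟩

theorem isPGroup_zpowers_of_orderOf {q : ℕ} {x : G} (h : orderOf x = q) :
    IsPGroup q (zpowers x) :=
  IsPGroup.of_card (n := 1) (by rw [Nat.card_zpowers, h, pow_one])

theorem card_split {H : Type*} [Group H] [Finite H] {r : ℕ} (hr : r ≠ 1) :
    Nat.card H = 1 + Nat.card {x : H // orderOf x = r} +
      Nat.card {x : H // x ≠ 1 ∧ orderOf x ≠ r} := by
  classical
  haveI := Fintype.ofFinite H
  simp only [Nat.card_eq_fintype_card, Fintype.card_subtype]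
  rw [← Finset.card_univ, ← Finset.card_filter_add_card_filter_not (fun x : H => x = 1),
    ← Finset.card_filter_add_card_filter_not (s := Finset.univ.filter fun x : H => ¬ x = 1)
      (fun x : H => orderOf x = r)]
  simp only [Finset.filter_filter]
  have e : (Finset.univ.filter fun x : H => ¬ x = 1 ∧ orderOf x = r) =
      Finset.univ.filter fun x : H => orderOf x = r := by
    refine Finset.filter_congr fun x _ => ⟨fun h => h.2, fun h => ⟨fun e => ?_, h⟩⟩
    rw [e, orderOf_one] at h; exact hr h.symm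
  rw [e]
  simp only [ne_eq]
  have e1 : (Finset.univ.filter fun x : H => x = 1).card = 1 :=
    Finset.card_eq_one.mpr ⟨1, by ext; simp⟩
  omega

end General

variable {G : Type*} [Group G] {p r : ℕ}

namespace Hyp

variable (h : Hyp G p r)
include h

theorem p_three : 3 ≤ p := by have := h.hp.two_le; have := h.p2; omega

theorem r_three : 3 ≤ r := by have := h.hr.two_le; have := h.r2; omega

theorem p_odd : Odd p := h.hp.odd_of_ne_two h.p2

theorem r_odd : Odd r := h.hr.odd_of_ne_two h.r2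

theorem prime_dvd_p {q : ℕ} (hq : q ∣ p) (hq1 : 1 < q) : q = p :=
  (h.hp.eq_one_or_self_of_dvd q hq).resolve_left (by omega)

/-- An element of order `r` commutes only with `r`-elements. -/
theorem r_commute {x y : G} (hx : orderOf x = r) (hxy : Commute x y) :
    orderOf y = 1 ∨ orderOf y = r := by
  have h3 := h.p_three
  have h4 := h.r_three
  have key : ∀ z : G, Commute x z → orderOf z = 2 ∨ orderOf z = p → False := by
    intro z hz hoz
    obtain ⟨kp, hkp⟩ := h.p_odd
    obtain ⟨kr, hkr⟩ := h.r_odd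
    have hcop : (orderOf x).Coprime (orderOf z) := by
      rw [hx]
      rcases hoz with e | e <;> rw [e]
      · exact Nat.coprime_two_right.mpr h.r_odd
      · exact (Nat.coprime_primes h.hr h.hp).mpr h.pr.symm
    have ho := hz.orderOf_mul_eq_mul_orderOf_of_coprime hcop
    rw [hx] at ho
    have hpr := h.pr
    rcases hoz with e | e <;> rw [e] at ho <;> rcases h.orders (x * z) with f | f | f | f | f <;>
      rw [f] at ho
    all_goals first
      | omega
      | (have := Nat.mul_le_mul (Nat.le_refl r) h3; omega)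
      | exact h.r2 (Nat.eq_of_mul_eq_mul_right h.hp.pos ho).symm
      | (have := Nat.eq_of_mul_eq_mul_right h.hp.pos ((one_mul p).trans ho); omega)
  rcases h.orders y with e | e | e | e | e
  · exact Or.inl e
  · exact (key y hxy (Or.inl e)).elim
  · exact (key y hxy (Or.inr e)).elim
  · exact Or.inr e
  · refine (key (y ^ p) (hxy.pow_right p) (Or.inl ?_)).elim
    rw [orderOf_pow' y h.hp.ne_zero, e, Nat.gcd_mul_left_left, Nat.mul_div_cancel _ h.hp.pos]

/-- An element of odd order that commutes with an involution has order `1` or `p`. -/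
theorem odd_commute {t c : G} (ht : orderOf t = 2) (htc : Commute t c) (hc : Odd (orderOf c)) :
    orderOf c = 1 ∨ orderOf c = p := by
  have h3 := h.p_three
  have h4 := h.r_three
  obtain ⟨k, hk⟩ := hc
  rcases h.orders c with e | e | e | e | e
  · exact Or.inl e
  · omega
  · exact Or.inr e
  · rcases h.r_commute e htc.symm with f | f <;> omega
  · omega

theorem pow_p_two {g : G} (hg : orderOf g = 2 * p) : orderOf (g ^ p) = 2 := by
  rw [orderOf_pow' g h.hp.ne_zero, hg, Nat.gcd_mul_left_left, Nat.mul_div_cancel _ h.hp.pos]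

theorem pow_succ_p {g : G} (hg : orderOf g = 2 * p) : orderOf (g ^ (p + 1)) = p := by
  have h3 := h.p_three
  obtain ⟨k, hk⟩ := h.p_odd
  haveI := Fact.mk h.hp
  refine orderOf_eq_prime ?_ fun e => ?_
  · rw [← pow_mul, ← orderOf_dvd_iff_pow_eq_one, hg]
    exact ⟨k + 1, by rw [hk]; ring⟩
  · have := Nat.le_of_dvd (by omega) (hg ▸ orderOf_dvd_of_pow_eq_one e)
    omega

theorem pow_decomp {g : G} (hg : orderOf g = 2 * p) : g ^ p * g ^ (p + 1) = g := by
  rw [← pow_add, show p + (p + 1) = 2 * p + 1 by omega, pow_succ, ← hg, pow_orderOf_eq_one,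
    one_mul]

theorem orderOf_mul_two_p {t x : G} (ht : orderOf t = 2) (hx : orderOf x = p) (hc : Commute t x) :
    orderOf (t * x) = 2 * p := by
  rw [hc.orderOf_mul_eq_mul_orderOf_of_coprime (by
    rw [ht, hx]; exact Nat.coprime_two_left.mpr h.p_odd), ht, hx]

theorem mul_pow_succ_p {t x : G} (ht : orderOf t = 2) (hx : orderOf x = p) (hc : Commute t x) :
    (t * x) ^ (p + 1) = x := by
  obtain ⟨k, hk⟩ := h.p_odd
  rw [hc.mul_pow, show t ^ (p + 1) = 1 by
      rw [show p + 1 = 2 * (k + 1) by omega, pow_mul, pow_two, mul_self_of_orderOf ht, one_pow],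
    one_mul, pow_succ, ← hx, pow_orderOf_eq_one, one_mul]

theorem two_group_sq {P : Subgroup G} (hP : IsPGroup 2 P) {x : G} (hx : x ∈ P) : x * x = 1 := by
  haveI : Fact (Nat.Prime 2) := ⟨Nat.prime_two⟩
  obtain ⟨k, hk⟩ := (IsPGroup.iff_orderOf (p := 2)).mp hP ⟨x, hx⟩
  rw [Subgroup.orderOf_mk] at hk
  have key : ∀ q, q.Prime → q ∣ orderOf x → q = 2 := fun q hq hd =>
    (Nat.prime_dvd_prime_iff_eq hq Nat.prime_two).mp (hq.dvd_of_dvd_pow (hk ▸ hd))
  rcases h.orders x with e | e | e | e | e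
  · rw [orderOf_eq_one_iff.mp e, one_mul]
  · exact mul_self_of_orderOf e
  · exact absurd (key p h.hp (e ▸ dvd_rfl)) h.p2
  · exact absurd (key r h.hr (e ▸ dvd_rfl)) h.r2
  · exact absurd (key p h.hp (e ▸ dvd_mul_left p 2)) h.p2

theorem two_group_comm {P : Subgroup G} (hP : IsPGroup 2 P) {x y : G} (hx : x ∈ P) (hy : y ∈ P) :
    x * y = y * x := by
  have h1 := h.two_group_sq hP hx
  have h2 := h.two_group_sq hP hy
  have h3 := h.two_group_sq hP (P.mul_mem hx hy)
  calc x * y = (x * y)⁻¹ := (inv_eq_of_mul_eq_one_right h3).symm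
    _ = y⁻¹ * x⁻¹ := mul_inv_rev x y
    _ = y * x := by rw [inv_eq_of_mul_eq_one_right h1, inv_eq_of_mul_eq_one_right h2]

theorem elemAb_two {P : Subgroup G} (hP : IsPGroup 2 P) :
    IsMulCommutative P ∧ ∀ a ∈ P, a ^ 2 = 1 :=
  ⟨⟨⟨fun a b => Subtype.ext (h.two_group_comm hP a.2 b.2)⟩⟩,
    fun a ha => by rw [pow_two, h.two_group_sq hP ha]⟩

theorem two_dvd_card [Finite G] : 2 ∣ Nat.card G := by
  obtain ⟨g, hg⟩ := h.ex2p
  exact (hg ▸ Dvd.intro p rfl : 2 ∣ orderOf g).trans (orderOf_dvd_natCard g)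

theorem p_dvd_card [Finite G] : p ∣ Nat.card G := by
  obtain ⟨g, hg⟩ := h.ex2p
  exact (hg ▸ Dvd.intro_left 2 rfl : p ∣ orderOf g).trans (orderOf_dvd_natCard g)

theorem r_dvd_card [Finite G] : r ∣ Nat.card G := by
  obtain ⟨g, hg⟩ := h.exr
  exact (hg ▸ dvd_rfl : r ∣ orderOf g).trans (orderOf_dvd_natCard g)

theorem not_top_pgroup [Finite G] {q : ℕ} [Fact q.Prime] {P : Subgroup G} (hP : IsPGroup q P) :
    P ≠ ⊤ := by
  intro e
  obtain ⟨k, hk⟩ := IsPGroup.iff_card.mp hP
  rw [e, Subgroup.card_top] at hk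
  have hq := (Fact.out : q.Prime)
  have h2 := (Nat.prime_dvd_prime_iff_eq Nat.prime_two hq).mp
    (Nat.prime_two.dvd_of_dvd_pow (hk ▸ h.two_dvd_card))
  have hr := (Nat.prime_dvd_prime_iff_eq h.hr hq).mp (h.hr.dvd_of_dvd_pow (hk ▸ h.r_dvd_card))
  exact h.r2 (hr.trans h2.symm)

/-- Burnside's transfer theorem in a simple group. -/
theorem not_normalizer_le [Finite G] [IsSimpleGroup G] {q : ℕ} [Fact q.Prime] (S : Sylow q G)
    (hq : q ∣ Nat.card G) :
    ¬ normalizer ((S : Subgroup G) : Set G) ≤ centralizer ((S : Subgroup G) : Set G) := by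
  intro hle
  have hne : (S : Subgroup G) ≠ ⊥ := S.ne_bot_of_dvd_card hq
  have hc := MonoidHom.ker_transferSylow_isComplement' S hle
  rcases (MonoidHom.normal_ker (MonoidHom.transferSylow S hle)).eq_bot_or_eq_top with e | e
  · rw [e] at hc
    exact h.not_top_pgroup S.isPGroup' (isComplement'_bot_left.mp hc)
  · rw [e] at hc
    exact hne (isComplement'_top_left.mp hc)

theorem four_le_card [Finite G] [IsSimpleGroup G] (S : Sylow 2 G) :
    4 ≤ Nat.card (S : Subgroup G) := by
  haveI : Fact (Nat.Prime 2) := ⟨Nat.prime_two⟩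
  obtain ⟨k, hk⟩ := IsPGroup.iff_card.mp S.isPGroup'
  have h2 := S.dvd_card_of_dvd_card h.two_dvd_card
  rcases k with _ | _ | k
  · rw [hk] at h2; norm_num at h2
  · exfalso
    apply h.not_normalizer_le S h.two_dvd_card
    intro g hg
    rw [mem_centralizer_iff]
    intro x hx
    rcases eq_or_ne x 1 with rfl | hx1
    · simp
    · have hgx : g * x * g⁻¹ ∈ (S : Subgroup G) := (mem_normalizer_iff.mp hg x).mp hx
      have hgx1 : g * x * g⁻¹ ≠ 1 := fun e => hx1 (conj_eq_one_iff.mp e)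
      have : g * x * g⁻¹ = x := by
        by_contra hne
        have h3 : ({1, x, g * x * g⁻¹} : Set G).ncard = 3 := by
          rw [Set.ncard_eq_three]; exact ⟨1, x, _, hx1.symm, hgx1.symm, Ne.symm hne, rfl⟩
        have h4 := Set.ncard_le_ncard (s := ({1, x, g * x * g⁻¹} : Set G))
          (t := ((S : Subgroup G) : Set G)) (by
            rintro y (rfl | rfl | rfl)
            · exact one_mem _
            · exact hx
            · exact hgx) (Set.toFinite _)
        rw [h3, ← Nat.card_coe_set_eq] at h4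
        simp only [SetLike.coe_sort_coe] at h4
        omega
      exact (mul_inv_eq_iff_eq_mul.mp this).symm
  · rw [hk, pow_succ, pow_succ]
    have := Nat.one_le_two_pow (n := k)
    omega

/-- The number of elements of order `r`. -/
theorem card_r_le [Finite G] [Fact r.Prime] (R : Sylow r G) :
    Nat.card (normalizer ((R : Subgroup G) : Set G)) * Nat.card {y : G // orderOf y = r} ≤
      Nat.card G * (Nat.card (center (R : Subgroup G)) - 1) := by
  classical
  set N := normalizer ((R : Subgroup G) : Set G) with hN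
  let Z : Type _ := {z : G // z ≠ 1 ∧ z ∈ (R : Subgroup G) ∧ ∀ x ∈ (R : Subgroup G), x * z = z * x}
  have hRnt : Nontrivial (R : Subgroup G) :=
    (nontrivial_iff_ne_bot _).mpr (R.ne_bot_of_dvd_card h.r_dvd_card)
  haveI := R.isPGroup'.center_nontrivial
  obtain ⟨⟨z0, hz0c⟩, hz01⟩ := exists_ne (1 : center (R : Subgroup G))
  have hz0r : orderOf (z0 : G) = r := by
    obtain ⟨k, hk⟩ := (IsPGroup.iff_orderOf (p := r)).mp R.isPGroup' z0
    rw [← Subgroup.orderOf_coe] at hk
    have key : ∀ q, q.Prime → q ∣ orderOf (z0 : G) → q = r := fun q hq hd =>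
      (Nat.prime_dvd_prime_iff_eq hq h.hr).mp (hq.dvd_of_dvd_pow (hk ▸ hd))
    rcases h.orders (z0 : G) with e | e | e | e | e
    · exact absurd (Subtype.ext (Subtype.ext (orderOf_eq_one_iff.mp e))) hz01
    · exact absurd (key 2 Nat.prime_two (e ▸ dvd_rfl)).symm h.r2
    · exact absurd (key p h.hp (e ▸ dvd_rfl)) h.pr
    · exact e
    · exact absurd (key p h.hp (e ▸ dvd_mul_left p 2)) h.pr
  have hex : ∀ y : {y : G // orderOf y = r}, ∃ a : G × Z, (y : G) = a.1 * a.2.1 * a.1⁻¹ := by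
    rintro ⟨y, hy⟩
    obtain ⟨φ, hφ⟩ := h.aut (z0 : G) y (hz0r.trans hy.symm)
    set P := (R : Subgroup G).map φ.toMonoidHom
    have hP : IsPGroup r P := R.isPGroup'.map _
    obtain ⟨g, hg⟩ := exists_conj_sylow R hP
    have hyP : y ∈ P := ⟨(z0 : G), z0.2, hφ⟩
    refine ⟨(g⁻¹, ⟨g * y * g⁻¹, ?_, hg y hyP, ?_⟩), by group⟩
    · intro e
      rw [conj_eq_one_iff] at e
      exact ne_one_of_orderOf hy h.hr.one_lt e
    · -- the conjugate of `P` is the whole of `R`
      have hPc : (P.map (MulAut.conj g).toMonoidHom) = (R : Subgroup G) := by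
        refine eq_of_le_of_card_ge ?_ ?_
        · rintro _ ⟨x, hx, rfl⟩
          exact hg x hx
        · rw [Nat.card_congr (equivMapOfInjective P _ (MulAut.conj g).injective).toEquiv.symm,
            Nat.card_congr (equivMapOfInjective (R : Subgroup G) _ φ.injective).toEquiv.symm]
      intro x hx
      rw [← hPc] at hx
      obtain ⟨_, ⟨x', hx', rfl⟩, rfl⟩ := hx
      have hc : Commute x' (z0 : G) := congrArg Subtype.val (mem_center_iff.mp hz0c ⟨x', hx'⟩)
      have := Commute.conj' (hc.map φ) g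
      rw [hφ] at this
      exact this
  choose f hf using hex
  have hZN : ∀ (n : N) (z : Z), (n : G) * z.1 * (n : G)⁻¹ ≠ 1 ∧
      (n : G) * z.1 * (n : G)⁻¹ ∈ (R : Subgroup G) ∧
      ∀ x ∈ (R : Subgroup G), x * ((n : G) * z.1 * (n : G)⁻¹) = ((n : G) * z.1 * (n : G)⁻¹) * x := by
    rintro ⟨n, hn⟩ ⟨z, hz1, hzR, hzc⟩
    refine ⟨fun e => hz1 (conj_eq_one_iff.mp e), (mem_normalizer_iff.mp hn z).mp hzR, fun x hx => ?_⟩
    have h1 : n⁻¹ * x * n ∈ (R : Subgroup G) := (mem_normalizer_iff''.mp hn x).mp hx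
    have := Commute.conj' (hzc _ h1) n
    rw [show n * (n⁻¹ * x * n) * n⁻¹ = x by group] at this
    exact this
  let F : {y : G // orderOf y = r} × N → G × Z := fun a =>
    ((f a.1).1 * (a.2 : G)⁻¹, ⟨(a.2 : G) * (f a.1).2.1 * (a.2 : G)⁻¹, hZN a.2 (f a.1).2⟩)
  have hF : Function.Injective F := by
    rintro ⟨y, n⟩ ⟨y', n'⟩ e
    obtain ⟨e1, e2⟩ := Prod.ext_iff.mp e
    replace e2 := congrArg (fun z : Z => (z : G)) e2
    simp only [F] at e1 e2
    have hy : y = y' := by
      apply Subtype.ext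
      calc (y : G) = ((f y).1 * (n : G)⁻¹) * ((n : G) * (f y).2.1 * (n : G)⁻¹) *
            ((f y).1 * (n : G)⁻¹)⁻¹ := by rw [hf y]; group
        _ = (y' : G) := by rw [e1, e2, hf y']; group
    subst hy
    simp only [Prod.mk.injEq, true_and]
    exact Subtype.ext (inv_injective (mul_left_cancel e1))
  have hle := Nat.card_le_card_of_injective F hF
  have hZ : Nat.card Z ≤ Nat.card (center (R : Subgroup G)) - 1 := by
    have h1 : Nat.card {c : center (R : Subgroup G) // c ≠ 1} =
        Nat.card (center (R : Subgroup G)) - 1 := by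
      haveI := Fintype.ofFinite (center (R : Subgroup G))
      rw [Nat.card_eq_fintype_card, Nat.card_eq_fintype_card]
      simp [Fintype.card_subtype_compl]
    rw [← h1]
    refine Nat.card_le_card_of_injective (fun z : Z => ⟨⟨⟨z.1, z.2.2.1⟩,
      mem_center_iff.mpr fun x => Subtype.ext (z.2.2.2 x.1 x.2)⟩,
        fun e => z.2.1 (congrArg (fun c : center (R : Subgroup G) => ((c : (R : Subgroup G)) : G)) e)⟩) ?_
    intro a b e
    exact Subtype.ext (congrArg (fun c : {c : center (R : Subgroup G) // c ≠ 1} =>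
      ((c.1 : (R : Subgroup G)) : G)) e)
  rw [Nat.card_prod, Nat.card_prod, mul_comm] at hle
  exact hle.trans (Nat.mul_le_mul_left _ hZ)

end Hyp

end Cfsg.Agent.FiveOrbit
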