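import Cfsg.Agent.FiveOrbit.Local

/-!
The case in which the normaliser of the Sylow 2-subgroup acts semiregularly on its involutions.
-/

set_option autoImplicit false

namespace Cfsg.Agent.FiveOrbit

open Subgroup

namespace Hyp

variable {G : Type*} [Group G] [Finite G] {p r : ℕ} (h : Hyp G p r) (S : Sylow 2 G)
include h

/-- The normal 2-complement of an involution centraliser. -/
theorem exists_complement
    (hA : ∀ s ∈ (S : Subgroup G), s ≠ 1 → ∀ n ∈ normalizer ((S : Subgroup G) : Set G),
      Commute s n → n ∈ centralizer ((S : Subgroup G) : Set G))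
    {s : G} (hs : s ∈ (S : Subgroup G)) (hs1 : s ≠ 1) :
    ∃ K : Subgroup G, (S : Subgroup G) ≤ normalizer (K : Set G) ∧ ¬ 2 ∣ Nat.card K ∧
      (∀ e ∈ (S : Subgroup G), e ∈ K → e = 1) ∧ K ≤ centralizer ({s} : Set G) ∧
      ∀ c : G, Commute s c → Odd (orderOf c) → c ∈ K := by
  haveI : Fact (Nat.Prime 2) := ⟨Nat.prime_two⟩
  set H := centralizer ({s} : Set G) with hH
  have hSH : (S : Subgroup G) ≤ H := fun x hx =>
    mem_centralizer_singleton_iff.mpr (h.sylow_commute S hx hs)
  obtain ⟨P, hP⟩ : ∃ P : Sylow 2 H, (P : Subgroup H) = (S : Subgroup G).subgroupOf H :=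
    ⟨S.subtype hSH, rfl⟩
  have hmemP : ∀ x : H, x ∈ (P : Subgroup H) ↔ (x : G) ∈ (S : Subgroup G) := fun x => by
    rw [hP]; exact Iff.rfl
  have hle : normalizer ((P : Subgroup H) : Set H) ≤ centralizer ((P : Subgroup H) : Set H) := by
    intro n hn
    rw [mem_centralizer_iff]
    intro x hx
    have hnG : (n : G) ∈ normalizer ((S : Subgroup G) : Set G) := by
      rw [mem_normalizer_iff]
      intro y
      constructor
      · intro hy
        exact (hmemP _).mp ((mem_normalizer_iff.mp hn ⟨y, hSH hy⟩).mp ((hmemP _).mpr hy))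
      · intro hy
        have hyH : y ∈ H := by
          have := H.mul_mem (H.mul_mem (H.inv_mem n.2) (hSH hy)) n.2
          simpa [mul_assoc] using this
        exact (hmemP _).mp ((mem_normalizer_iff.mp hn ⟨y, hyH⟩).mpr ((hmemP _).mpr hy))
    have hc := hA s hs hs1 n hnG (mem_centralizer_singleton_iff.mp n.2).symm
    exact Subtype.ext (mem_centralizer_iff.mp hc (x : G) ((hmemP x).mp hx))
  have hc := MonoidHom.ker_transferSylow_isComplement' P hle
  generalize MonoidHom.transferSylow P hle = τ at hc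
  refine ⟨τ.ker.map H.subtype, ?_, ?_, ?_, map_subtype_le _, ?_⟩
  · intro x hx
    rw [mem_normalizer_iff]
    intro y
    constructor
    · rintro ⟨k, hk, rfl⟩
      exact ⟨⟨x, hSH hx⟩ * k * ⟨x, hSH hx⟩⁻¹, (MonoidHom.normal_ker τ).conj_mem k hk _, rfl⟩
    · rintro ⟨k, hk, hky⟩
      refine ⟨⟨x, hSH hx⟩⁻¹ * k * ⟨x, hSH hx⟩, ?_, ?_⟩
      · simpa using (MonoidHom.normal_ker τ).conj_mem k hk ⟨x, hSH hx⟩⁻¹
      · change x⁻¹ * (k : G) * x = y
        rw [show (k : G) = x * y * x⁻¹ from hky]
        group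
  · rw [card_map_of_injective H.subtype_injective, ← hc.index_eq_card]
    exact P.not_dvd_index
  · rintro e he ⟨k, hk, rfl⟩
    have : k ∈ (τ.ker ⊓ (P : Subgroup H) : Subgroup H) := ⟨hk, (hmemP k).mpr he⟩
    rw [hc.disjoint.eq_bot, Subgroup.mem_bot] at this
    rw [this]; rfl
  · intro c hc' hodd
    refine ⟨⟨c, mem_centralizer_singleton_iff.mpr hc'.symm⟩, ?_, rfl⟩
    have h1 : orderOf (τ ⟨c, mem_centralizer_singleton_iff.mpr hc'.symm⟩) ∣ orderOf c := by
      exact (orderOf_map_dvd τ (⟨c, mem_centralizer_singleton_iff.mpr hc'.symm⟩ : H)).trans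
        (dvd_of_eq (Subgroup.orderOf_mk _ _))
    obtain ⟨k, hk⟩ := (IsPGroup.iff_orderOf (p := 2)).mp P.isPGroup'
      (τ ⟨c, mem_centralizer_singleton_iff.mpr hc'.symm⟩)
    rw [hk] at h1
    refine MonoidHom.mem_ker.mpr (orderOf_eq_one_iff.mp ?_)
    rw [hk]
    rcases k with _ | k
    · exact pow_zero 2
    · exact absurd (((dvd_pow_self 2 (Nat.succ_ne_zero k)).trans h1))
        (Nat.two_dvd_ne_zero.mpr (Nat.odd_iff.mp hodd))

theorem caseA [IsSimpleGroup G]
    (hA : ∀ s ∈ (S : Subgroup G), s ≠ 1 → ∀ n ∈ normalizer ((S : Subgroup G) : Set G),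
      Commute s n → n ∈ centralizer ((S : Subgroup G) : Set G)) : False := by
  classical
  haveI : Fact (Nat.Prime 2) := ⟨Nat.prime_two⟩
  haveI := Fact.mk h.hr
  set N := normalizer ((S : Subgroup G) : Set G) with hN
  set C := centralizer ((S : Subgroup G) : Set G) with hC
  let Inv : Type _ := {t : G // orderOf t = 2}
  let E1 : Type _ := {s : G // s ∈ (S : Subgroup G) ∧ s ≠ 1}
  let O : Type _ := {a : G × G // orderOf a.1 = 2 ∧ Commute a.1 a.2 ∧ Odd (orderOf a.2)}
  let CP : Type _ := {a : G × G // orderOf a.1 = 2 ∧ Commute a.1 a.2}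
  have hex : ∀ t : Inv, ∃ a : G × E1, (t : G) = a.1 * a.2.1 * a.1⁻¹ := by
    rintro ⟨t, ht⟩
    obtain ⟨g, hg, hg1⟩ := conj_into S ht
    exact ⟨(g⁻¹, ⟨_, hg, hg1⟩), by group⟩
  choose f hf using hex
  have key : ∀ (t : Inv) (c : G), Commute (t : G) c →
      Commute (f t).2.1 ((f t).1⁻¹ * c * (f t).1) := by
    intro t c hc
    have := Commute.conj' hc (f t).1⁻¹
    rw [inv_inv, hf t] at this
    convert this using 1
    group
  -- first count
  have c1 : Nat.card (S : Subgroup G) * Nat.card O ≤ Nat.card CP := by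
    let F : ↥(S : Subgroup G) × O → CP := fun a =>
      ⟨(a.2.1.1, (f ⟨a.2.1.1, a.2.2.1⟩).1 *
          ((a.1 : G) * ((f ⟨a.2.1.1, a.2.2.1⟩).1⁻¹ * a.2.1.2 * (f ⟨a.2.1.1, a.2.2.1⟩).1)) *
          (f ⟨a.2.1.1, a.2.2.1⟩).1⁻¹), a.2.2.1, by
        set t : Inv := ⟨a.2.1.1, a.2.2.1⟩
        have h1 : Commute (f t).2.1 ((a.1 : G) * ((f t).1⁻¹ * a.2.1.2 * (f t).1)) :=
          (h.sylow_commute S (f t).2.2.1 a.1.2).mul_right (key t _ a.2.2.2.1)
        have h2 := Commute.conj' h1 (f t).1
        rw [← hf t] at h2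
        exact h2⟩
    have hF : Function.Injective F := by
      rintro ⟨e, ⟨⟨t, c⟩, ht, htc, hc⟩⟩ ⟨e', ⟨⟨t', c'⟩, ht', htc', hc'⟩⟩ he
      obtain rfl : t = t' := congrArg (fun z : CP => z.1.1) he
      replace he := congrArg (fun z : CP => z.1.2) he
      simp only [F] at he
      have he' := mul_left_cancel (mul_right_cancel he)
      set g := (f ⟨t, ht⟩).1
      obtain ⟨K, -, -, hK, -, hKo⟩ := h.exists_complement S hA (f ⟨t, ht⟩).2.2.1 (f ⟨t, ht⟩).2.2.2
      have hoc : Odd (orderOf (g⁻¹ * c * g)) := by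
        have := orderOf_conj g⁻¹ c
        rw [inv_inv] at this
        rw [this]; exact hc
      have hoc' : Odd (orderOf (g⁻¹ * c' * g)) := by
        have := orderOf_conj g⁻¹ c'
        rw [inv_inv] at this
        rw [this]; exact hc'
      have hk := K.mul_mem (hKo _ (key ⟨t, ht⟩ c' htc') hoc')
        (K.inv_mem (hKo _ (key ⟨t, ht⟩ c htc) hoc))
      have h3 : (e' : G)⁻¹ * e = (g⁻¹ * c' * g) * (g⁻¹ * c * g)⁻¹ := by
        rw [eq_mul_inv_iff_mul_eq, mul_assoc, inv_mul_eq_iff_eq_mul]
        exact he'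
      have hee : (e : G) = e' :=
        (inv_mul_eq_one.mp (hK _ ((S : Subgroup G).mul_mem ((S : Subgroup G).inv_mem e'.2) e.2)
          (h3 ▸ hk))).symm
      rw [hee] at he'
      have hcc : c = c' := mul_left_cancel (mul_right_cancel (mul_left_cancel he'))
      obtain rfl : e = e' := Subtype.ext hee
      subst hcc
      rfl
    rw [← Nat.card_prod]
    exact Nat.card_le_card_of_injective F hF
  -- second count
  have c2 : Nat.card CP * C.relIndex N ≤ Nat.card G * (Nat.card (S : Subgroup G) - 1) := by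
    rw [← card_ne_one_mem, show C.relIndex N = Nat.card (N ⧸ C.subgroupOf N) from rfl]
    have hconj : ∀ (n : G), n ∈ N → ∀ s ∈ (S : Subgroup G), n⁻¹ * s * n ∈ (S : Subgroup G) :=
      fun n hn s hs => (mem_normalizer_iff''.mp hn s).mp hs
    let F : CP × (N ⧸ C.subgroupOf N) → G × E1 := fun a =>
      (a.1.1.2 * (f ⟨a.1.1.1, a.1.2.1⟩).1 * (a.2.out : G),
        ⟨(a.2.out : G)⁻¹ * (f ⟨a.1.1.1, a.1.2.1⟩).2.1 * (a.2.out : G),
          hconj _ a.2.out.2 _ (f _).2.2.1, fun e => (f ⟨a.1.1.1, a.1.2.1⟩).2.2.2 (by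
            have := congrArg (fun x => (a.2.out : G) * x * (a.2.out : G)⁻¹) e
            simpa [mul_assoc] using this)⟩)
    have hF : Function.Injective F := by
      rintro ⟨⟨⟨t, c⟩, ht, htc⟩, q⟩ ⟨⟨⟨t', c'⟩, ht', htc'⟩, q'⟩ he
      obtain ⟨e1, e2⟩ := Prod.ext_iff.mp he
      replace e2 := congrArg (fun z : E1 => (z : G)) e2
      simp only [F] at e1 e2
      have rec' : ∀ (t c : G) (ht : orderOf t = 2) (_ : Commute t c) (n : G),
          (c * (f ⟨t, ht⟩).1 * n) * (n⁻¹ * (f ⟨t, ht⟩).2.1 * n) * (c * (f ⟨t, ht⟩).1 * n)⁻¹ =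
            t := by
        intro t c ht htc n
        have := hf ⟨t, ht⟩
        calc _ = c * ((f ⟨t, ht⟩).1 * (f ⟨t, ht⟩).2.1 * (f ⟨t, ht⟩).1⁻¹) * c⁻¹ := by group
          _ = c * t * c⁻¹ := by rw [← this]
          _ = t := by rw [← htc.eq, mul_inv_cancel_right]
      have htt : t = t' := by rw [← rec' t c ht htc q.out, e1, e2, rec' t' c' ht' htc']
      subst htt
      set g := (f ⟨t, ht⟩).1 with hg
      set n := (q.out : G) with hn
      set n' := (q'.out : G) with hn'
      have h3 : n * n'⁻¹ = g⁻¹ * (c⁻¹ * c') * g := by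
        rw [mul_inv_eq_iff_eq_mul]
        calc n = g⁻¹ * c⁻¹ * (c * g * n) := by group
          _ = g⁻¹ * (c⁻¹ * c') * g * n' := by rw [e1]; group
      have hcs : Commute (f ⟨t, ht⟩).2.1 (n * n'⁻¹) := by
        rw [h3]; exact key ⟨t, ht⟩ _ (htc.inv_right.mul_right htc')
      have hmem : n * n'⁻¹ ∈ C :=
        hA _ (f ⟨t, ht⟩).2.2.1 (f ⟨t, ht⟩).2.2.2 _ (N.mul_mem q.out.2 (N.inv_mem q'.out.2)) hcs
      have hmem' : n'⁻¹ * n ∈ C := by
        rw [mem_centralizer_iff]
        intro x hx
        have hy : n' * x * n'⁻¹ ∈ (S : Subgroup G) := (mem_normalizer_iff.mp q'.out.2 x).mp hx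
        have hcy : Commute (n' * x * n'⁻¹) (n * n'⁻¹) := mem_centralizer_iff.mp hmem _ hy
        have := Commute.conj' hcy n'⁻¹
        rw [inv_inv, show n'⁻¹ * (n' * x * n'⁻¹) * n' = x by group,
          show n'⁻¹ * (n * n'⁻¹) * n' = n'⁻¹ * n by group] at this
        exact this
      have hqq : q = q' := by
        rw [← QuotientGroup.out_eq' q, ← QuotientGroup.out_eq' q']
        refine (QuotientGroup.eq.mpr ?_).symm
        exact hmem' 
      subst hqq
      have : c = c' := mul_right_cancel (mul_right_cancel e1)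
      subst this
      rfl
    have := Nat.card_le_card_of_injective F hF
    rwa [Nat.card_prod, Nat.card_prod] at this
  -- elements of order `2 p`
  have c3 : Nat.card Inv + Nat.card {g : G // orderOf g = 2 * p} ≤ Nat.card O := by
    let F : Inv ⊕ {g : G // orderOf g = 2 * p} → O := Sum.elim
      (fun t => ⟨((t : G), 1), t.2, Commute.one_right _, by simp⟩)
      (fun g => ⟨((g : G) ^ p, (g : G) ^ (p + 1)), h.pow_p_two g.2, Commute.pow_pow_self _ _ _,
        by rw [h.pow_succ_p g.2]; exact h.p_odd⟩)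
    have hne : ∀ (a : Inv) (b : {g : G // orderOf g = 2 * p}), F (.inl a) ≠ F (.inr b) := by
      intro a b e
      have e2 := congrArg (fun z : O => z.1.2) e
      simp only [F, Sum.elim_inl, Sum.elim_inr] at e2
      exact ne_one_of_orderOf (h.pow_succ_p b.2) h.hp.one_lt e2.symm
    have hF : Function.Injective F := by
      rintro (a | a) (b | b) e
      · exact congrArg _ (Subtype.ext (congrArg (fun z : O => z.1.1) e))
      · exact absurd e (hne a b)
      · exact absurd e.symm (hne b a)
      · refine congrArg _ (Subtype.ext ?_)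
        rw [← h.pow_decomp a.2, ← h.pow_decomp b.2]
        exact congrArg₂ (· * ·) (congrArg (fun z : O => z.1.1) e) (congrArg (fun z : O => z.1.2) e)
    rw [← Nat.card_sum]
    exact Nat.card_le_card_of_injective F hF
  -- each element of order `p` commutes with an involution
  have c4 : Nat.card {x : G // orderOf x = p} ≤ Nat.card {g : G // orderOf g = 2 * p} := by
    obtain ⟨g, hg⟩ := h.ex2p
    have : ∀ x : {x : G // orderOf x = p}, ∃ t : G, orderOf t = 2 ∧ Commute t x := by
      rintro ⟨x, hx⟩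
      obtain ⟨φ, hφ⟩ := h.aut (g ^ (p + 1)) x ((h.pow_succ_p hg).trans hx.symm)
      refine ⟨φ (g ^ p), ?_, ?_⟩
      · rw [MulEquiv.orderOf_eq]; exact h.pow_p_two hg
      · have := (Commute.pow_pow_self g p (p + 1)).map φ
        rwa [hφ] at this
    choose t ht htc using this
    refine Nat.card_le_card_of_injective
      (fun x => ⟨t x * x, h.orderOf_mul_two_p (ht x) x.2 (htc x)⟩) ?_
    intro a b e
    apply Subtype.ext
    rw [← h.mul_pow_succ_p (ht a) a.2 (htc a), ← h.mul_pow_succ_p (ht b) b.2 (htc b)]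
    exact congrArg (fun z : {g : G // orderOf g = 2 * p} => (z : G) ^ (p + 1)) e
  -- and with three of them if `|S| ≥ 8`
  have c5 : 8 ≤ Nat.card (S : Subgroup G) →
      3 * Nat.card {x : G // orderOf x = p} ≤ Nat.card {g : G // orderOf g = 2 * p} := by
    intro h8
    obtain ⟨g, hg⟩ := h.ex2p
    obtain ⟨a, ha, ha1⟩ := conj_into S (h.pow_p_two hg)
    obtain ⟨K, hSK, hK2, -, hKs, hKo⟩ := h.exists_complement S hA ha ha1
    have hKne : K ≠ ⊥ := by
      intro e
      have hm := hKo _ (Commute.conj' (Commute.pow_pow_self g p (p + 1)) a)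
        (by rw [orderOf_conj, h.pow_succ_p hg]; exact h.p_odd)
      rw [e, Subgroup.mem_bot, conj_eq_one_iff] at hm
      exact ne_one_of_orderOf (h.pow_succ_p hg) h.hp.one_lt hm
    obtain ⟨B, hBS, hB, k, hk, hk1, hkB⟩ := h.exists_fixed_by_half S hSK hK2 hKne
    have hkp : orderOf k = p := (h.odd_commute (h.sylow_orderOf S ha ha1)
      (mem_centralizer_singleton_iff.mp (hKs hk)).symm (odd_orderOf_mem hK2 hk)).resolve_left
      (fun e => hk1 (orderOf_eq_one_iff.mp e))
    haveI : Fintype {b : G // b ∈ B ∧ b ≠ 1} := Fintype.ofFinite _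
    obtain ⟨emb⟩ := Function.Embedding.nonempty_of_card_le (α := Fin 3)
      (β := {b : G // b ∈ B ∧ b ≠ 1}) (by
        rw [Fintype.card_fin, ← Nat.card_eq_fintype_card, card_ne_one_mem]; omega)
    have : ∀ x : {x : G // orderOf x = p}, ∃ t : Fin 3 → G, Function.Injective t ∧
        ∀ i, orderOf (t i) = 2 ∧ Commute (t i) x := by
      rintro ⟨x, hx⟩
      obtain ⟨φ, hφ⟩ := h.aut k x (hkp.trans hx.symm)
      refine ⟨fun i => φ (emb i).1, ?_, fun i => ⟨?_, ?_⟩⟩
      · intro i j e
        exact emb.injective (Subtype.ext (φ.injective e))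
      · rw [MulEquiv.orderOf_eq]; exact h.sylow_orderOf S (hBS (emb i).2.1) (emb i).2.2
      · have := Commute.map (hkB _ (emb i).2.1) φ
        rwa [hφ] at this
    choose t htinj htp using this
    have hle := Nat.card_le_card_of_injective
      (fun a : {x : G // orderOf x = p} × Fin 3 =>
        (⟨t a.1 a.2 * a.1, h.orderOf_mul_two_p (htp a.1 a.2).1 a.1.2 (htp a.1 a.2).2⟩ :
          {g : G // orderOf g = 2 * p})) (by
      rintro ⟨a, i⟩ ⟨b, j⟩ e
      replace e : t a i * (a : G) = t b j * b := congrArg Subtype.val e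
      have hab : a = b := by
        apply Subtype.ext
        rw [← h.mul_pow_succ_p (htp a i).1 a.2 (htp a i).2,
          ← h.mul_pow_succ_p (htp b j).1 b.2 (htp b j).2, e]
      subst hab
      rw [htinj a (mul_right_cancel e)])
    rw [Nat.card_prod, Nat.card_fin] at hle
    linarith
  -- elements of order `r`
  have c6 : 2 * Nat.card {y : G // orderOf y = r} < Nat.card G := by
    obtain ⟨R⟩ := (inferInstance : Nonempty (Sylow r G))
    have h1 := h.card_r_le R
    set NR := normalizer ((R : Subgroup G) : Set G)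
    have hZN : 2 * Nat.card (center (R : Subgroup G)) ≤ Nat.card NR := by
      have hZR : Nat.card (center (R : Subgroup G)) ∣ Nat.card (R : Subgroup G) :=
        card_subgroup_dvd_card _
      have hRN : Nat.card (R : Subgroup G) ∣ Nat.card NR := card_dvd_of_le le_normalizer
      obtain ⟨a, ha⟩ := hZR.trans hRN
      have hposN : 0 < Nat.card NR := Nat.card_pos
      rcases a with _ | _ | a
      · omega
      · exfalso
        rw [Nat.zero_add, mul_one] at ha
        have e1 : Nat.card (R : Subgroup G) = Nat.card NR :=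
          Nat.dvd_antisymm hRN (ha ▸ hZR)
        have eN : (R : Subgroup G) = NR := eq_of_le_of_card_ge le_normalizer e1.ge
        have eZ : center (R : Subgroup G) = ⊤ := eq_top_of_card_eq _ (ha.symm.trans e1.symm)
        refine h.not_normalizer_le R h.r_dvd_card ?_
        show NR ≤ _
        rw [← eN]
        intro x hx
        rw [mem_centralizer_iff]
        intro y hy
        have := mem_center_iff.mp (eZ ▸ mem_top (⟨x, hx⟩ : (R : Subgroup G))) ⟨y, hy⟩
        exact congrArg Subtype.val this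
      · rw [ha, mul_comm 2]; exact Nat.mul_le_mul_left _ (by omega)
    have hZpos : 0 < Nat.card (center (R : Subgroup G)) := Nat.card_pos
    have hG : 0 < Nat.card G := Nat.card_pos
    by_contra hlt
    push Not at hlt
    have h2 : Nat.card (center (R : Subgroup G)) * Nat.card G ≤
        Nat.card G * (Nat.card (center (R : Subgroup G)) - 1) :=
      calc _ ≤ Nat.card (center (R : Subgroup G)) * (2 * Nat.card {y : G // orderOf y = r}) :=
            Nat.mul_le_mul_left _ hlt
        _ = (2 * Nat.card (center (R : Subgroup G))) * Nat.card {y : G // orderOf y = r} := by ring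
        _ ≤ Nat.card NR * Nat.card {y : G // orderOf y = r} := Nat.mul_le_mul_right _ hZN
        _ ≤ _ := h1
    rw [mul_comm] at h2
    have := Nat.le_of_mul_le_mul_left h2 hG
    omega
  -- all elements
  have c7 : Nat.card G ≤ 1 + Nat.card Inv + Nat.card {x : G // orderOf x = p} +
      Nat.card {y : G // orderOf y = r} + Nat.card {g : G // orderOf g = 2 * p} := by
    haveI := Fintype.ofFinite G
    simp only [Inv, Nat.card_eq_fintype_card, Fintype.card_subtype]
    rw [← Finset.card_univ]
    calc (Finset.univ : Finset G).card ≤ ((Finset.univ.filter fun x : G => x = 1) ∪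
          (Finset.univ.filter fun x : G => orderOf x = 2) ∪
          (Finset.univ.filter fun x : G => orderOf x = p) ∪
          (Finset.univ.filter fun x : G => orderOf x = r) ∪
          (Finset.univ.filter fun x : G => orderOf x = 2 * p)).card := by
          refine Finset.card_le_card fun x _ => ?_
          simp only [Finset.mem_union, Finset.mem_filter, Finset.mem_univ, true_and]
          rcases h.orders x with e | e | e | e | e
          · simp [orderOf_eq_one_iff.mp e]
          all_goals simp [e]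
      _ ≤ _ := by
        have e1 : (Finset.univ.filter fun x : G => x = 1).card = 1 :=
          Finset.card_eq_one.mpr ⟨1, by ext; simp⟩
        refine (Finset.card_union_le _ _).trans (Nat.add_le_add_right ?_ _)
        refine (Finset.card_union_le _ _).trans (Nat.add_le_add_right ?_ _)
        refine (Finset.card_union_le _ _).trans (Nat.add_le_add_right ?_ _)
        exact (Finset.card_union_le _ _).trans_eq (by rw [e1])
  have hI : Nat.card (S : Subgroup G) - 1 ≤ Nat.card Inv := by
    rw [← card_ne_one_mem]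
    exact Nat.card_le_card_of_injective
      (fun s : E1 => (⟨s.1, h.sylow_orderOf S s.2.1 s.2.2⟩ : Inv))
      (fun a b e => Subtype.ext (congrArg (fun z : Inv => (z : G)) e))
  have h3 := h.three_le_relIndex S
  -- the final count
  set e := Nat.card (S : Subgroup G) with he
  set I := Nat.card Inv
  set P2 := Nat.card {g : G // orderOf g = 2 * p}
  have main : 3 * e * (I + P2) ≤ Nat.card G * (e - 1) :=
    calc 3 * e * (I + P2) ≤ 3 * (e * Nat.card O) := by
          rw [mul_assoc]; exact Nat.mul_le_mul_left _ (Nat.mul_le_mul_left _ c3)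
      _ ≤ C.relIndex N * Nat.card CP := Nat.mul_le_mul h3 c1
      _ ≤ Nat.card G * (e - 1) := by rw [mul_comm]; exact c2
  have h4 : 4 ≤ e := h.four_le_card S
  rcases (show e = 4 ∨ 8 ≤ e by
    obtain ⟨k, hk⟩ := IsPGroup.iff_card.mp S.isPGroup'
    rw [he, hk]
    rw [he, hk] at h4
    rcases k with _ | _ | _ | k
    · norm_num at h4
    · norm_num at h4
    · exact Or.inl rfl
    · exact Or.inr (by
        calc 8 = 2 ^ 3 := rfl
          _ ≤ 2 ^ (k + 3) := Nat.pow_le_pow_right (by norm_num) (by omega))) with h44 | h8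
  · rw [h44] at main hI
    omega
  · have := c5 h8
    have h5 : 3 * (I + P2) < Nat.card G := by
      have hG : 0 < Nat.card G := Nat.card_pos
      by_contra hlt
      push Not at hlt
      have := (Nat.mul_le_mul_left e hlt).trans (le_trans (le_of_eq (by ring)) main)
      rw [mul_comm e] at this
      have := Nat.le_of_mul_le_mul_left this hG
      omega
    omega

end Hyp

end Cfsg.Agent.FiveOrbit
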