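import Cfsg.Agent.FiveOrbit.Local
import Cfsg.Agent.Char.Burnside
import Cfsg.Agent.S0018
import Cfsg.Agent.PSolv.Cores

/-!
The case in which an element of order `p` of the normaliser of the Sylow 2-subgroup fixes an
involution.
-/

set_option autoImplicit false

namespace Cfsg.Agent.FiveOrbit

open Subgroup

theorem eq_one_of_inverted {Q : Type*} [Group Q] [Finite Q] (hodd : Odd (Nat.card Q)) {v k : Q}
    (hvk : v * k * v⁻¹ = k⁻¹) : k = 1 := by
  obtain ⟨j, hj⟩ := hodd.of_dvd_nat (orderOf_dvd_natCard v)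
  have key : ∀ i : ℕ, v ^ (2 * i + 1) * k * (v ^ (2 * i + 1))⁻¹ = k⁻¹ := by
    intro i
    induction i with
    | zero => simpa using hvk
    | succ i ih =>
      rw [show 2 * (i + 1) + 1 = 2 + (2 * i + 1) by ring, pow_add]
      calc v ^ 2 * v ^ (2 * i + 1) * k * (v ^ 2 * v ^ (2 * i + 1))⁻¹
          = v ^ 2 * (v ^ (2 * i + 1) * k * (v ^ (2 * i + 1))⁻¹) * (v ^ 2)⁻¹ := by group
        _ = (v * (v * k * v⁻¹) * v⁻¹)⁻¹ := by rw [ih]; group
        _ = k⁻¹ := by
          rw [hvk, show v * k⁻¹ * v⁻¹ = (v * k * v⁻¹)⁻¹ by group, hvk, inv_inv]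
  have h1 := key j
  rw [← hj, pow_orderOf_eq_one, one_mul, inv_one, mul_one] at h1
  have h2 : orderOf k ∣ 2 :=
    orderOf_dvd_of_pow_eq_one (by rw [pow_two, mul_eq_one_iff_eq_inv]; exact h1)
  obtain ⟨i, hi⟩ := hodd.of_dvd_nat (orderOf_dvd_natCard k)
  exact orderOf_eq_one_iff.mp (by have := Nat.le_of_dvd two_pos h2; omega)

namespace Hyp

variable {G : Type*} [Group G] [Finite G] {p r : ℕ} (h : Hyp G p r) (S : Sylow 2 G)
include h

theorem exists_invol_commute {x : G} (hx : orderOf x = p) :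
    ∃ t : G, orderOf t = 2 ∧ Commute t x := by
  obtain ⟨g, hg⟩ := h.ex2p
  obtain ⟨φ, hφ⟩ := h.aut (g ^ (p + 1)) x ((h.pow_succ_p hg).trans hx.symm)
  refine ⟨φ (g ^ p), ?_, ?_⟩
  · rw [MulEquiv.orderOf_eq]; exact h.pow_p_two hg
  · have := (Commute.pow_pow_self g p (p + 1)).map φ
    rwa [hφ] at this

theorem isSolvable_centralizer {t : G} (ht : orderOf t = 2) :
    Group.IsSolvable (centralizer ({t} : Set G)) := by
  refine Char.solvable_of_card_eq_pow_mul_pow 2 p Nat.prime_two h.hp _ rfl fun q hq hd => ?_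
  haveI := Fact.mk hq
  obtain ⟨z, hz⟩ := exists_prime_orderOf_dvd_card' q hd
  have hzt : Commute (z : G) t := mem_centralizer_singleton_iff.mp z.2
  have hz' : orderOf (z : G) = q := by rw [Subgroup.orderOf_coe, hz]
  rcases h.orders (z : G) with e | e | e | e | e <;> rw [hz'] at e
  · exact absurd e hq.ne_one
  · exact Or.inl e
  · exact Or.inr e
  · exfalso
    have h3 := h.r_three
    rcases h.r_commute (hz'.trans e) hzt with f | f <;> omega
  · exact absurd ((Nat.prime_dvd_prime_iff_eq Nat.prime_two hq).mp (e ▸ Dvd.intro p rfl))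
      (fun f => by
        have := h.p_three
        omega)

/-- The odd core of an involution centraliser. -/
theorem exists_core {s : G} (hs : s ∈ (S : Subgroup G)) (hs1 : s ≠ 1) :
    ∃ X : Subgroup G, (S : Subgroup G) ≤ normalizer (X : Set G) ∧ ¬ 2 ∣ Nat.card X ∧
      X ≤ centralizer ({s} : Set G) ∧ (∀ c : G, Commute s c → ∀ o ∈ X, c * o * c⁻¹ ∈ X) ∧
      ∀ b : G, Commute s b → b * b = 1 → ∃ e ∈ (S : Subgroup G), b * e⁻¹ ∈ X := by
  haveI : Fact (Nat.Prime 2) := ⟨Nat.prime_two⟩
  set H := centralizer ({s} : Set G) with hH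
  have hSH : (S : Subgroup G) ≤ H := fun x hx =>
    mem_centralizer_singleton_iff.mpr (h.sylow_commute S hx hs)
  obtain ⟨P, hP⟩ : ∃ P : Sylow 2 H, (P : Subgroup H) = (S : Subgroup G).subgroupOf H :=
    ⟨S.subtype hSH, rfl⟩
  haveI : Group.IsSolvable H := h.isSolvable_centralizer (h.sylow_orderOf S hs hs1)
  have hPc : IsMulCommutative (P : Subgroup H) :=
    ⟨⟨fun a b => Subtype.ext (Subtype.ext (h.sylow_commute S (a := (a : H).1) (b := (b : H).1)
      (hP ▸ a.2 : (a : H) ∈ (S : Subgroup G).subgroupOf H)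
      (hP ▸ b.2 : (b : H) ∈ (S : Subgroup G).subgroupOf H)))⟩⟩
  have hQ := Cfsg.Agent.S0018.result 2 P hPc
  set O := Cfsg.pPrimeCore 2 H with hO
  have hOn : O.Normal :=
    haveI := PSolv.pPrimeCore_characteristic 2 H; normal_of_characteristic O
  refine ⟨O.map H.subtype, ?_, ?_, map_subtype_le _, ?_, ?_⟩
  · intro x hx
    rw [mem_normalizer_iff]
    intro y
    constructor
    · rintro ⟨k, hk, rfl⟩
      exact ⟨⟨x, hSH hx⟩ * k * ⟨x, hSH hx⟩⁻¹, hOn.conj_mem k hk _, rfl⟩
    · rintro ⟨k, hk, hky⟩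
      refine ⟨⟨x, hSH hx⟩⁻¹ * k * ⟨x, hSH hx⟩, ?_, ?_⟩
      · simpa using hOn.conj_mem k hk ⟨x, hSH hx⟩⁻¹
      · change x⁻¹ * (k : G) * x = y
        rw [show (k : G) = x * y * x⁻¹ from hky]
        group
  · rw [card_map_of_injective H.subtype_injective]
    exact (Nat.Prime.coprime_iff_not_dvd Nat.prime_two).mp
      (PSolv.coprime_card_pPrimeCore 2 H).symm
  · rintro c hc _ ⟨k, hk, rfl⟩
    exact ⟨⟨c, mem_centralizer_singleton_iff.mpr hc.symm.eq⟩ * k *
      ⟨c, mem_centralizer_singleton_iff.mpr hc.symm.eq⟩⁻¹, hOn.conj_mem k hk _, rfl⟩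
  · intro b hb hbb
    let b' : H := ⟨b, mem_centralizer_singleton_iff.mpr hb.symm.eq⟩
    have hbP : IsPGroup 2 (zpowers b') := fun z => by
      obtain ⟨z, i, rfl⟩ := z
      refine ⟨1, Subtype.ext (Subtype.ext ?_)⟩
      simp only [pow_one, pow_two, SubgroupClass.coe_pow, Subgroup.coe_mul, OneMemClass.coe_one,
        SubgroupClass.coe_zpow, b']
      rw [← zpow_add, ← two_mul, zpow_mul, zpow_two, hbb, one_zpow]
    obtain ⟨g, hg⟩ := exists_conj_sylow P hbP
    have hbQ : b' ∈ (P : Subgroup H) ⊔ O := by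
      have := hQ.conj_mem _ (mem_sup_left (hg b' (mem_zpowers b'))) g⁻¹
      simpa [mul_assoc] using this
    obtain ⟨e, he, o, ho, heo⟩ := mem_sup_of_normal_right.mp hbQ
    refine ⟨(e : G), by rw [hP] at he; exact he, ?_⟩
    refine ⟨e * o * e⁻¹, hOn.conj_mem o ho e, ?_⟩
    rw [heo]
    rfl

theorem caseB [IsSimpleGroup G] {s x : G} (hs : s ∈ (S : Subgroup G)) (hs1 : s ≠ 1)
    (hx : orderOf x = p) (hxN : x ∈ normalizer ((S : Subgroup G) : Set G))
    (hsx : Commute s x) (hxC : x ∉ centralizer ((S : Subgroup G) : Set G)) : False := by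
  classical
  haveI : Fact (Nat.Prime 2) := ⟨Nat.prime_two⟩
  haveI := Fact.mk h.hr
  set N := normalizer ((S : Subgroup G) : Set G) with hN
  have odd_one : ∀ (X : Subgroup G), ¬ 2 ∣ Nat.card X → ∀ y ∈ X, y * y = 1 → y = 1 := by
    intro X hX y hy hyy
    by_contra hy1
    have := odd_orderOf_mem hX hy
    rw [orderOf_two hyy hy1] at this
    exact absurd this (by decide)
  -- (i) no element of order `p` centralises a hyperplane
  have hi : ∀ (w : G) (A : Subgroup G), orderOf w = p → A ≤ (S : Subgroup G) →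
      (∀ a ∈ A, Commute a w) → Nat.card (S : Subgroup G) ≤ 2 * Nat.card A → False := by
    intro w A hw hA hAw hcard
    obtain ⟨φ, hφ⟩ := h.aut w x (hw.trans hx.symm)
    have hP : IsPGroup 2 (A.map φ.toMonoidHom) := (S.isPGroup'.to_le hA).map _
    have hPH : A.map φ.toMonoidHom ≤ centralizer ({x} : Set G) := by
      rintro _ ⟨a, ha, rfl⟩
      have := (hAw a ha).map φ
      rw [hφ] at this
      exact mem_centralizer_singleton_iff.mpr this.eq
    have hQH : zpowers s ≤ centralizer ({x} : Set G) :=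
      zpowers_le.mpr (mem_centralizer_singleton_iff.mpr hsx.eq)
    obtain ⟨T, hTH, hT, hsT, c, -, hcT⟩ := exists_pgroup_in hP
      (isPGroup_zpowers_of_orderOf (h.sylow_orderOf S hs hs1)) hPH hQH
    have hsT' : s ∈ T := hsT (mem_zpowers s)
    have hAT : Nat.card A ≤ Nat.card T :=
      Nat.card_le_card_of_injective
        (fun a : A => (⟨c * φ a * c⁻¹, hcT _ ⟨a, a.2, rfl⟩⟩ : T))
        (fun a b e => Subtype.ext (φ.injective (mul_left_cancel (mul_right_cancel
          (congrArg Subtype.val e)))))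
    obtain ⟨X, -, hX2, -, hXn, hXb⟩ := h.exists_core S hs hs1
    have hex : ∀ b : T, ∃ e : G, e ∈ (S : Subgroup G) ∧ Commute e x ∧ (b : G) * e⁻¹ ∈ X := by
      rintro ⟨b, hb⟩
      obtain ⟨e, he, heX⟩ := hXb b (h.two_group_comm hT hsT' hb) (h.two_group_sq hT hb)
      refine ⟨e, he, ?_, heX⟩
      have hxb : x * b = b * x := (mem_centralizer_singleton_iff.mp (hTH hb)).symm
      set o := e * b⁻¹ with ho
      have hoX : o ∈ X := by
        have := X.inv_mem heX
        rwa [mul_inv_rev, inv_inv] at this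
      have hy : x * e * x⁻¹ * e⁻¹ ∈ X := by
        have e1 : x * e * x⁻¹ * e⁻¹ = (x * o * x⁻¹) * o⁻¹ := by
          rw [ho]
          calc x * e * x⁻¹ * e⁻¹ = x * (e * b⁻¹) * (b * x⁻¹) * e⁻¹ := by group
            _ = x * (e * b⁻¹) * (x⁻¹ * b) * e⁻¹ := by
              rw [show b * x⁻¹ = x⁻¹ * b from ((show Commute x b from hxb).inv_left).symm.eq]
            _ = _ := by group
        rw [e1]
        exact X.mul_mem (hXn x hsx o hoX) (X.inv_mem hoX)
      have hyS : x * e * x⁻¹ * e⁻¹ ∈ (S : Subgroup G) :=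
        (S : Subgroup G).mul_mem ((mem_normalizer_iff.mp hxN e).mp he) ((S : Subgroup G).inv_mem he)
      have := mul_inv_eq_one.mp (odd_one X hX2 _ hy (h.two_group_sq S.isPGroup' hyS))
      exact (mul_inv_eq_iff_eq_mul.mp this).symm
    choose f hfS hfx hfX using hex
    set F := ((S : Subgroup G) ⊓ centralizer ({x} : Set G)).subgroupOf (S : Subgroup G) with hF
    have hTF : Nat.card T ≤ Nat.card F := by
      refine Nat.card_le_card_of_injective (fun b : T => (⟨⟨f b, hfS b⟩,
        ⟨hfS b, mem_centralizer_singleton_iff.mpr (hfx b).eq⟩⟩ : F)) ?_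
      intro a b e
      have e' : f a = f b := congrArg (fun z : F => ((z : (S : Subgroup G)) : G)) e
      have hab : (a : G) * (b : G)⁻¹ ∈ X := by
        have := X.mul_mem (hfX a) (X.inv_mem (hfX b))
        rw [e', mul_inv_rev, inv_inv] at this
        simpa [mul_assoc] using this
      exact Subtype.ext (mul_inv_eq_one.mp
        (odd_one X hX2 _ hab (h.two_group_sq hT (T.mul_mem a.2 (T.inv_mem b.2)))))
    have hidx : F.index ≤ 2 := by
      have h1 := F.card_mul_index
      have h2 : 0 < Nat.card F := Nat.card_pos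
      by_contra hlt
      push Not at hlt
      have := Nat.mul_le_mul_left (Nat.card F) hlt
      omega
    obtain ⟨e, he, hex⟩ : ∃ e ∈ (S : Subgroup G), ¬ Commute e x := by
      by_contra hall
      push Not at hall
      exact hxC (mem_centralizer_iff.mpr fun e he => (hall e he).eq)
    have hFmem : ∀ a : (S : Subgroup G), a ∈ F ↔ Commute (a : G) x := fun a =>
      ⟨fun ha => mem_centralizer_singleton_iff.mp ha.2,
        fun ha => ⟨a.2, mem_centralizer_singleton_iff.mpr ha.eq⟩⟩
    have h2 : F.index = 2 := by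
      have h0 : F.index ≠ 0 := index_ne_zero_of_finite
      have h1 : F.index ≠ 1 := fun e1 =>
        hex ((hFmem ⟨e, he⟩).mp (by rw [index_eq_one.mp e1]; exact mem_top _))
      omega
    have hy : x * e * x⁻¹ ∈ (S : Subgroup G) := (mem_normalizer_iff.mp hxN e).mp he
    have hyF : ¬ Commute (x * e * x⁻¹) x := fun hc => hex (by
      have := Commute.conj' hc x⁻¹
      simpa [mul_assoc] using this)
    have hf : Commute (e⁻¹ * (x * e * x⁻¹)) x :=
      (hFmem (⟨e, he⟩⁻¹ * ⟨x * e * x⁻¹, hy⟩)).mp ((mul_mem_iff_of_index_two h2).mpr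
        (iff_of_false (fun hc => hex ((hFmem ⟨e, he⟩).mp (inv_mem_iff.mp hc)))
          (fun hc => hyF ((hFmem ⟨_, hy⟩).mp hc))))
    set f' := e⁻¹ * (x * e * x⁻¹) with hf'
    have key : ∀ n : ℕ, x ^ n * e * (x ^ n)⁻¹ = e * f' ^ n := by
      intro n
      induction n with
      | zero => simp
      | succ n ih =>
        rw [pow_succ' x, pow_succ' f', show x * x ^ n * e * (x * x ^ n)⁻¹ =
          x * (x ^ n * e * (x ^ n)⁻¹) * x⁻¹ by group, ih]
        calc x * (e * f' ^ n) * x⁻¹ = x * e * (f' ^ n * x⁻¹) := by group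
          _ = x * e * (x⁻¹ * f' ^ n) := by rw [((hf.pow_left n).inv_right).eq]
          _ = e * (f' * f' ^ n) := by
            rw [show x * e * (x⁻¹ * f' ^ n) = (x * e * x⁻¹) * f' ^ n by group,
              show x * e * x⁻¹ = e * f' by rw [hf']; group, mul_assoc]
    have h1 := key p
    rw [← hx, pow_orderOf_eq_one, one_mul, inv_one, mul_one, hx] at h1
    have hfp : f' ^ p = 1 := (mul_eq_left.mp h1.symm)
    have hf2 : f' ^ 2 = 1 := by
      rw [pow_two]
      exact h.two_group_sq S.isPGroup' ((S : Subgroup G).mul_mem ((S : Subgroup G).inv_mem he) hy)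
    have hf1 : f' = 1 := by
      obtain ⟨j, hj⟩ := h.p_odd
      rw [hj, pow_succ, pow_mul, hf2, one_pow, one_mul] at hfp
      exact hfp
    exact hex (mul_inv_eq_iff_eq_mul.mp (inv_mul_eq_one.mp hf1).symm).symm
  -- (ii) involution centralisers lie in `N`
  have hCN : ∀ t ∈ (S : Subgroup G), t ≠ 1 → ∀ c : G, Commute t c → c ∈ N := by
    intro t ht ht1
    obtain ⟨X, hSX, hX2, hXt, -, hXb⟩ := h.exists_core S ht ht1
    have hXbot : X = ⊥ := by
      by_contra hne
      obtain ⟨B, hBS, hB, k, hk, hk1, hkB⟩ := h.exists_fixed_by_half S hSX hX2 hne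
      have hkp : orderOf k = p := (h.odd_commute (h.sylow_orderOf S ht ht1)
        (mem_centralizer_singleton_iff.mp (hXt hk)).symm (odd_orderOf_mem hX2 hk)).resolve_left
        (fun e => hk1 (orderOf_eq_one_iff.mp e))
      exact hi k B hkp hBS hkB hB
    have hb : ∀ c : G, Commute t c → ∀ e ∈ (S : Subgroup G), c * e * c⁻¹ ∈ (S : Subgroup G) := by
      intro c hc e he
      have hcom : Commute t (c * e * c⁻¹) :=
        (hc.mul_right (h.sylow_commute S ht he)).mul_right hc.inv_right
      obtain ⟨e', he', hX'⟩ := hXb _ hcom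
        (by rw [show c * e * c⁻¹ * (c * e * c⁻¹) = c * (e * e) * c⁻¹ by group,
          h.two_group_sq S.isPGroup' he, mul_one, mul_inv_cancel])
      rw [hXbot, Subgroup.mem_bot, mul_inv_eq_one] at hX'
      rwa [hX']
    intro c hc
    rw [hN, mem_normalizer_iff]
    refine fun e => ⟨fun he => hb c hc e he, fun he => ?_⟩
    have := hb c⁻¹ hc.inv_right _ he
    simpa [mul_assoc] using this
  have hTI : ∀ g t : G, t ∈ (S : Subgroup G) → t ≠ 1 → g * t * g⁻¹ ∈ (S : Subgroup G) → g ∈ N := by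
    have h1 : ∀ g t : G, t ∈ (S : Subgroup G) → t ≠ 1 → g * t * g⁻¹ ∈ (S : Subgroup G) →
        ∀ e ∈ (S : Subgroup G), g * e * g⁻¹ ∈ (S : Subgroup G) := by
      intro g t ht ht1 hgt e he
      refine involution_mem S ?_ (hCN _ hgt (fun e => ht1 (conj_eq_one_iff.mp e)) _
        (Commute.conj' (h.sylow_commute S ht he) g))
      rw [show g * e * g⁻¹ * (g * e * g⁻¹) = g * (e * e) * g⁻¹ by group,
        h.two_group_sq S.isPGroup' he, mul_one, mul_inv_cancel]
    intro g t ht ht1 hgt
    rw [hN, mem_normalizer_iff]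
    refine fun e => ⟨fun he => h1 g t ht ht1 hgt e he, fun he => ?_⟩
    have := h1 g⁻¹ _ hgt (fun e => ht1 (conj_eq_one_iff.mp e)) (by simpa [mul_assoc] using ht) _ he
    simpa [mul_assoc] using this
  -- (iii) no element of order `p` is real
  have hreal0 : ∀ k u t : G, orderOf k = p → t ∈ (S : Subgroup G) → t ≠ 1 → Commute t k →
      u * k * u⁻¹ = k⁻¹ → False := by
    intro k u t hk ht ht1 htk huk
    have h2 : Commute (u * t * u⁻¹) k := by
      have := Commute.conj' htk u
      rw [huk] at this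
      simpa using this.inv_right
    have ht2 : orderOf (u * t * u⁻¹) = 2 := by rw [orderOf_conj, h.sylow_orderOf S ht ht1]
    obtain ⟨T, hTH, hT, hsT, c, hc, hcT⟩ := exists_pgroup_in (H := centralizer ({k} : Set G))
      (isPGroup_zpowers_of_orderOf ht2)
      (isPGroup_zpowers_of_orderOf (h.sylow_orderOf S ht ht1))
      (zpowers_le.mpr (mem_centralizer_singleton_iff.mpr h2.eq))
      (zpowers_le.mpr (mem_centralizer_singleton_iff.mpr htk.eq))
    have hz := hcT _ (mem_zpowers (u * t * u⁻¹))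
    have hzS : c * (u * t * u⁻¹) * c⁻¹ ∈ (S : Subgroup G) :=
      involution_mem S (h.two_group_sq hT hz)
        (hCN t ht ht1 _ (h.two_group_comm hT (hsT (mem_zpowers t)) hz))
    have hv : c * u ∈ N := hTI _ t ht ht1 (by
      rw [show c * u * t * (c * u)⁻¹ = c * (u * t * u⁻¹) * c⁻¹ by group]; exact hzS)
    have hvk : c * u * k * (c * u)⁻¹ = k⁻¹ := by
      rw [show c * u * k * (c * u)⁻¹ = c * (u * k * u⁻¹) * c⁻¹ by group, huk]
      have hck : Commute c k := mem_centralizer_singleton_iff.mp hc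
      rw [hck.inv_right.eq, mul_inv_cancel_right]
    have hkN : k ∈ N := hCN t ht ht1 k htk
    haveI : ((S : Subgroup G).subgroupOf N).Normal :=
      (normal_subgroupOf_iff_le_normalizer le_normalizer).mpr le_rfl
    have hodd : Odd (Nat.card (N ⧸ (S : Subgroup G).subgroupOf N)) := by
      rw [Nat.odd_iff]
      refine Nat.two_dvd_ne_zero.mp fun h2 => S.not_dvd_index (h2.trans ?_)
      exact dvd_of_mul_right_eq _ (relIndex_mul_index (le_normalizer (H := (S : Subgroup G))))
    have hkS : k ∈ (S : Subgroup G) := by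
      have := eq_one_of_inverted hodd
        (v := QuotientGroup.mk (⟨c * u, hv⟩ : N)) (k := QuotientGroup.mk (⟨k, hkN⟩ : N)) (by
          rw [← QuotientGroup.mk_inv, ← QuotientGroup.mk_inv, ← QuotientGroup.mk_mul,
            ← QuotientGroup.mk_mul]
          exact congrArg QuotientGroup.mk (Subtype.ext hvk))
      exact (QuotientGroup.eq_one_iff (N := (S : Subgroup G).subgroupOf N) (⟨k, hkN⟩ : N)).mp this
    have := h.sylow_orderOf S hkS (ne_one_of_orderOf hk h.hp.one_lt)
    exact h.p2 (hk.symm.trans this)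
  have hreal : ∀ k u : G, orderOf k = p → u * k * u⁻¹ = k⁻¹ → False := by
    intro k u hk huk
    obtain ⟨t, ht, htk⟩ := h.exists_invol_commute hk
    obtain ⟨g, hg, hg1⟩ := conj_into S ht
    refine hreal0 (g * k * g⁻¹) (g * u * g⁻¹) _ (by rw [orderOf_conj, hk]) hg hg1
      (Commute.conj' htk g) ?_
    rw [show g * u * g⁻¹ * (g * k * g⁻¹) * (g * u * g⁻¹)⁻¹ = g * (u * k * u⁻¹) * g⁻¹ by group, huk]
    group
  -- (iv) two involutions in a coset
  have hN_top : N ≠ ⊤ := by
    intro e
    rcases (normalizer_eq_top_iff.mp e).eq_bot_or_eq_top with f | f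
    · exact S.ne_bot_of_dvd_card h.two_dvd_card f
    · exact h.not_top_pgroup S.isPGroup' f
  let E1 : Type _ := {s : G // s ∈ (S : Subgroup G) ∧ s ≠ 1}
  let Q1 : Type _ := {q : G ⧸ N // q ≠ ((1 : G) : G ⧸ N)}
  let I1 : Type _ := {u : G // orderOf u = 2 ∧ u ∉ N}
  have hI1 : Nat.card Q1 * Nat.card E1 ≤ Nat.card I1 := by
    let F : Q1 × E1 → I1 := fun a => ⟨a.1.1.out * a.2.1 * a.1.1.out⁻¹,
      by rw [orderOf_conj]; exact h.sylow_orderOf S a.2.2.1 a.2.2.2, fun hm => a.1.2 (by
        have hu : a.1.1.out * a.2.1 * a.1.1.out⁻¹ * (a.1.1.out * a.2.1 * a.1.1.out⁻¹) = 1 := by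
          rw [show a.1.1.out * a.2.1 * a.1.1.out⁻¹ * (a.1.1.out * a.2.1 * a.1.1.out⁻¹) =
            a.1.1.out * (a.2.1 * a.2.1) * a.1.1.out⁻¹ by group,
            h.two_group_sq S.isPGroup' a.2.2.1, mul_one, mul_inv_cancel]
        rw [← QuotientGroup.out_eq' a.1.1, QuotientGroup.eq, mul_one]
        exact N.inv_mem (hTI _ _ a.2.2.1 a.2.2.2 (involution_mem S hu hm)))⟩
    have hF : Function.Injective F := by
      rintro ⟨q, s⟩ ⟨q', s'⟩ e
      replace e : q.1.out * s.1 * q.1.out⁻¹ = q'.1.out * s'.1 * q'.1.out⁻¹ :=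
        congrArg (fun z : I1 => (z : G)) e
      have hs' : (q'.1.out⁻¹ * q.1.out) * s.1 * (q'.1.out⁻¹ * q.1.out)⁻¹ = s'.1 := by
        rw [show (q'.1.out⁻¹ * q.1.out) * s.1 * (q'.1.out⁻¹ * q.1.out)⁻¹ =
          q'.1.out⁻¹ * (q.1.out * s.1 * q.1.out⁻¹) * q'.1.out by group, e]
        group
      have hm := hTI _ _ s.2.1 s.2.2 (hs'.symm ▸ s'.2.1)
      have hq : q = q' := by
        apply Subtype.ext
        rw [← QuotientGroup.out_eq' q.1, ← QuotientGroup.out_eq' q'.1]
        exact (QuotientGroup.eq.mpr hm).symm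
      subst hq
      rw [Subtype.ext (mul_left_cancel (mul_right_cancel e))]
    rw [← Nat.card_prod]
    exact Nat.card_le_card_of_injective F hF
  have hE1 : 3 ≤ Nat.card E1 := by
    rw [show Nat.card E1 = Nat.card (S : Subgroup G) - 1 from card_ne_one_mem _]
    have := h.four_le_card S
    omega
  have hQ1 : 0 < Nat.card Q1 := by
    obtain ⟨g, hg⟩ : ∃ g, g ∉ N := by
      by_contra hall
      push Not at hall
      exact hN_top (eq_top_iff.mpr fun g _ => hall g)
    haveI : Nonempty Q1 := ⟨⟨(g : G ⧸ N), fun e => hg (by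
      have := QuotientGroup.eq.mp e
      rw [mul_one] at this
      exact inv_mem_iff.mp this)⟩⟩
    exact Nat.card_pos
  obtain ⟨⟨u, hu, huN⟩, ⟨v, hv, hvN⟩, huv, heq⟩ : ∃ a b : I1, a ≠ b ∧
      ((a : G) : G ⧸ N) = ((b : G) : G ⧸ N) := by
    by_contra hcon
    push Not at hcon
    have hle : Nat.card I1 ≤ Nat.card Q1 :=
      Nat.card_le_card_of_injective (fun a : I1 => (⟨((a : G) : G ⧸ N), fun e => a.2.2 (by
          have := QuotientGroup.eq.mp e
          rw [mul_one] at this
          exact inv_mem_iff.mp this)⟩ : Q1))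
        (fun a b e => by
          by_contra hne
          exact hcon a b hne (congrArg Subtype.val e))
    have := Nat.mul_le_mul_left (Nat.card Q1) hE1
    omega
  obtain ⟨y, hy_def⟩ : ∃ y, y = u * v := ⟨_, rfl⟩
  have hyN : y ∈ N := by
    have := QuotientGroup.eq.mp heq
    rwa [inv_of_orderOf hu, ← hy_def] at this
  have hy1 : y ≠ 1 := fun e => huv (Subtype.ext (by
    have := eq_inv_of_mul_eq_one_right (hy_def ▸ e : u * v = 1)
    rw [inv_of_orderOf hu] at this
    exact this.symm))
  have huy : u * y * u⁻¹ = y⁻¹ := by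
    rw [hy_def, mul_inv_rev, inv_of_orderOf hv, ← mul_assoc, mul_self_of_orderOf hu, one_mul]
  have hyr : orderOf y = r := by
    have two_case : ∀ z : G, orderOf z = 2 → z ∈ N → u * z * u⁻¹ = z⁻¹ → False := by
      intro z hz hzN huz
      rw [inv_of_orderOf hz, mul_inv_eq_iff_eq_mul] at huz
      exact huN (hCN z (involution_mem S (mul_self_of_orderOf hz) hzN)
        (ne_one_of_orderOf hz one_lt_two) u huz.symm)
    rcases h.orders y with e | e | e | e | e
    · exact absurd (orderOf_eq_one_iff.mp e) hy1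
    · exact (two_case y e hyN huy).elim
    · exact (hreal y u e huy).elim
    · exact e
    · refine (two_case (y ^ p) (h.pow_p_two e) (N.pow_mem hyN p) ?_).elim
      rw [← conj_pow, huy, inv_pow]
  obtain ⟨R, hR⟩ : ∃ R : Sylow r G, (R : Subgroup G) = centralizer ({y} : Set G) := by
    have hCr : IsPGroup r (centralizer ({y} : Set G)) := by
      refine IsPGroup.iff_orderOf.mpr fun c => ?_
      have hc : Commute (c : G) y := mem_centralizer_singleton_iff.mp c.2
      rcases h.r_commute hyr hc.symm with e | e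
      · exact ⟨0, by rw [← Subgroup.orderOf_coe, e, pow_zero]⟩
      · exact ⟨1, by rw [← Subgroup.orderOf_coe, e, pow_one]⟩
    obtain ⟨R1, hR1⟩ := hCr.exists_le_sylow
    have hRnt : Nontrivial (R1 : Subgroup G) :=
      (nontrivial_iff_ne_bot _).mpr (R1.ne_bot_of_dvd_card h.r_dvd_card)
    haveI := R1.isPGroup'.center_nontrivial
    have hrc : r ∣ Nat.card (center (R1 : Subgroup G)) := by
      obtain ⟨k, hk⟩ := IsPGroup.iff_card.mp (R1.isPGroup'.to_subgroup (center (R1 : Subgroup G)))
      rcases Nat.eq_zero_or_pos k with rfl | hk0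
      · have := Finite.one_lt_card (α := center (R1 : Subgroup G))
        rw [hk, pow_zero] at this
        omega
      · exact hk ▸ dvd_pow_self r hk0.ne'
    obtain ⟨⟨⟨z, hzR⟩, hzc⟩, hz⟩ := exists_prime_orderOf_dvd_card' r hrc
    rw [Subgroup.orderOf_mk, Subgroup.orderOf_mk] at hz
    obtain ⟨φ, hφ⟩ := h.aut z y (hz.trans hyr.symm)
    refine ⟨R1, (le_antisymm hR1 ?_).symm⟩
    have hle : (R1 : Subgroup G).map φ.toMonoidHom ≤ centralizer ({y} : Set G) := by
      rintro _ ⟨a, ha, rfl⟩
      have hc : Commute a z := congrArg Subtype.val (mem_center_iff.mp hzc ⟨a, ha⟩)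
      have := hc.map φ
      rw [hφ] at this
      exact mem_centralizer_singleton_iff.mpr this.eq
    refine (eq_of_le_of_card_ge hR1 ?_).ge
    calc Nat.card (R1 : Subgroup G) = Nat.card ((R1 : Subgroup G).map φ.toMonoidHom) :=
          (card_map_of_injective φ.injective).symm
      _ ≤ _ := card_le_of_le hle
  set NR := normalizer ((R : Subgroup G) : Set G) with hNR
  have hRr : ∀ c ∈ (R : Subgroup G), orderOf c = 1 ∨ orderOf c = r := fun c hc =>
    h.r_commute hyr (mem_centralizer_singleton_iff.mp (hR ▸ hc)).symm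
  have hyR : y ∈ (R : Subgroup G) := hR ▸ mem_centralizer_singleton_iff.mpr rfl
  have hzy : Nat.card (zpowers y) = r := by rw [Nat.card_zpowers, hyr]
  have hgen : ∀ z ∈ zpowers y, z ≠ 1 → zpowers z = zpowers y := by
    intro z hz hz1
    refine eq_of_le_of_card_ge (zpowers_le.mpr hz) ?_
    have hd : orderOf z ∣ r := hyr ▸ orderOf_dvd_of_mem_zpowers hz
    rw [hzy, Nat.card_zpowers]
    rcases (Nat.dvd_prime h.hr).mp hd with e | e
    · exact absurd (orderOf_eq_one_iff.mp e) hz1
    · omega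
  set H := N ⊓ normalizer ((zpowers y : Subgroup G) : Set G) with hH
  have hHNR : H ≤ NR := by
    have h1 : ∀ g : G, g⁻¹ * y * g ∈ zpowers y → ∀ a ∈ (R : Subgroup G),
        g * a * g⁻¹ ∈ (R : Subgroup G) := by
      intro g hg a ha
      rw [hR, mem_centralizer_singleton_iff] at ha ⊢
      obtain ⟨i, hi⟩ := mem_zpowers_iff.mp hg
      have := Commute.conj' ((show Commute a y from ha).zpow_right i) g
      rw [hi] at this
      simpa [mul_assoc] using this.eq
    intro g hg
    rw [hNR, mem_normalizer_iff]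
    refine fun a => ⟨fun ha => h1 g ?_ a ha, fun ha => ?_⟩
    · exact (mem_normalizer_iff''.mp hg.2 y).mp (mem_zpowers y)
    · have := h1 g⁻¹ (by rw [inv_inv]; exact (mem_normalizer_iff.mp hg.2 y).mp (mem_zpowers y)) _ ha
      simpa [mul_assoc] using this
  have hYH : zpowers y ≤ H := zpowers_le.mpr ⟨hyN, le_normalizer (mem_zpowers y)⟩
  -- the centraliser of `y` in `N`
  have hY : (R : Subgroup G) ⊓ H = zpowers y := by
    refine le_antisymm ?_ (le_inf (zpowers_le.mpr hyR) hYH)
    rintro z ⟨hzR, hzN, -⟩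
    by_contra hz
    set A := closure ({y, z} : Set G) with hA
    have hAR : A ≤ (R : Subgroup G) :=
      (closure_le _).mpr (Set.insert_subset hyR (Set.singleton_subset_iff.mpr hzR))
    have hAN : A ≤ N := (closure_le _).mpr (Set.insert_subset hyN (Set.singleton_subset_iff.mpr hzN))
    have hyz : Commute z y := mem_centralizer_singleton_iff.mp (hR ▸ hzR)
    have hAc : A ≤ centralizer (A : Set G) := by
      refine (closure_le _).mpr fun a ha => ?_
      rw [SetLike.mem_coe, mem_centralizer_iff]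
      suffices A ≤ centralizer ({a} : Set G) from fun b hb =>
        mem_centralizer_singleton_iff.mp (this hb)
      refine (closure_le _).mpr fun b hb => mem_centralizer_singleton_iff.mpr ?_
      rcases ha with rfl | rfl <;> rcases hb with rfl | rfl
      · rfl
      · exact hyz.eq
      · exact hyz.eq.symm
      · rfl
    have hAel : Cfsg.IsElementaryAbelian r A := by
      refine ⟨⟨⟨fun a b => Subtype.ext (mem_centralizer_iff.mp (hAc b.2) a a.2)⟩⟩, fun a ha => ?_⟩
      rcases hRr a (hAR ha) with e | e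
      · rw [orderOf_eq_one_iff.mp e, one_pow]
      · rw [← e, pow_orderOf_eq_one]
    have hA2 : r ^ 2 ≤ Nat.card A := by
      obtain ⟨k, hk⟩ := IsPGroup.iff_card.mp (R.isPGroup'.to_le hAR)
      have hlt : r < Nat.card A := by
        rw [← hzy]
        refine lt_of_le_of_ne (card_le_of_le (zpowers_le.mpr (Subgroup.subset_closure (Set.mem_insert y {z}))))
          fun e => hz ?_
        rw [eq_of_le_of_card_ge (zpowers_le.mpr (Subgroup.subset_closure (Set.mem_insert y {z}))) e.ge]
        exact Subgroup.subset_closure (Set.mem_insert_of_mem y (Set.mem_singleton z))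
      rw [hk] at hlt ⊢
      refine Nat.pow_le_pow_right h.hr.pos ?_
      by_contra hk1
      have := Nat.pow_le_pow_right (n := r) h.hr.pos (show k ≤ 1 by omega)
      rw [pow_one] at this
      omega
    have hr2 : ¬ r ∣ Nat.card (S : Subgroup G) := by
      intro hd
      obtain ⟨k, hk⟩ := IsPGroup.iff_card.mp S.isPGroup'
      exact h.r2 ((Nat.prime_dvd_prime_iff_eq h.hr Nat.prime_two).mp
        (h.hr.dvd_of_dvd_pow (hk ▸ hd)))
    refine S.ne_bot_of_dvd_card h.two_dvd_card (le_bot_iff.mp ?_)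
    refine Signalizer.le_of_forall_hyperplane hAel (hAN.trans le_rfl) hr2 ?_
    intro B hB hi e he
    rw [Subgroup.mem_bot]
    by_contra he1
    have hB1 : B ≠ ⊥ := by
      intro eB
      rw [eB, relIndex_bot_left] at hi
      have := h.hr.two_le
      nlinarith [hA2, hi]
    obtain ⟨b, hb, hb1⟩ := B.ne_bot_iff_exists_ne_one.mp hB1 |> fun ⟨b, hb⟩ =>
      (⟨(b : G), b.2, fun e => hb (Subtype.ext e)⟩ : ∃ b : G, b ∈ B ∧ b ≠ 1)
    have hbr : orderOf b = r := (hRr b (hAR (hB hb))).resolve_left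
      (fun e => hb1 (orderOf_eq_one_iff.mp e))
    have := h.r_commute hbr (mem_centralizer_iff.mp he.2 b hb)
    rw [h.sylow_orderOf S he.1 he1] at this
    have := h.r_three
    omega
  -- the arithmetic of the normalisers
  set d := (R : Subgroup G).relIndex H with hd
  set e := (R : Subgroup G).relIndex NR with he
  have hcardH : Nat.card H = r * d := by
    have := relIndex_mul_relIndex ⊥ ((R : Subgroup G) ⊓ H) H bot_le inf_le_right
    rw [relIndex_bot_left, relIndex_bot_left, inf_relIndex_right, hY, hzy] at this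
    exact this.symm
  have hcardNR : Nat.card NR = Nat.card (R : Subgroup G) * e := by
    have := relIndex_mul_relIndex ⊥ (R : Subgroup G) NR bot_le le_normalizer
    rw [relIndex_bot_left, relIndex_bot_left] at this
    exact this.symm
  have hde : d ∣ e := by
    haveI : ((R : Subgroup G).subgroupOf NR).Normal :=
      (normal_subgroupOf_iff_le_normalizer le_normalizer).mpr le_rfl
    have := relIndex_dvd_index_of_normal ((R : Subgroup G).subgroupOf NR) (H.subgroupOf NR)
    rwa [relIndex_subgroupOf hHNR] at this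
  have hd2 : ¬ 2 ∣ d := by
    intro h2
    obtain ⟨⟨w, hw⟩, hwo⟩ := exists_prime_orderOf_dvd_card' 2
      (hcardH ▸ h2.mul_left r : 2 ∣ Nat.card H)
    rw [Subgroup.orderOf_mk] at hwo
    have hwS : w ∈ (S : Subgroup G) := involution_mem S (mul_self_of_orderOf hwo) hw.1
    have h3 : w * y * w⁻¹ * y⁻¹ ∈ zpowers y :=
      mul_mem ((mem_normalizer_iff.mp hw.2 y).mp (mem_zpowers y)) (inv_mem (mem_zpowers y))
    have h4 : w * y * w⁻¹ * y⁻¹ ∈ (S : Subgroup G) := by
      rw [show w * y * w⁻¹ * y⁻¹ = w * (y * w⁻¹ * y⁻¹) by group]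
      exact mul_mem hwS ((mem_normalizer_iff.mp hyN _).mp (inv_mem hwS))
    have h5 : w * y * w⁻¹ * y⁻¹ = 1 := by
      by_contra h5
      have := orderOf_dvd_of_mem_zpowers h3
      rw [hyr, h.sylow_orderOf S h4 h5] at this
      exact h.r2 ((Nat.prime_dvd_prime_iff_eq Nat.prime_two h.hr).mp this).symm
    have hc : Commute y w := (mul_inv_eq_iff_eq_mul.mp (mul_inv_eq_one.mp h5)).symm
    have := h.r_commute hyr hc
    rw [hwo] at this
    have := h.r_three
    omega
  have he2 : 2 ∣ e := by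
    have huNR : u ∈ NR := by
      rw [hNR, mem_normalizer_iff]
      have h1 : ∀ a ∈ (R : Subgroup G), u * a * u⁻¹ ∈ (R : Subgroup G) := by
        intro a ha
        rw [hR, mem_centralizer_singleton_iff] at ha ⊢
        have := (Commute.conj' (show Commute a y from ha) u)
        rw [huy] at this
        simpa using this.inv_right.eq
      refine fun a => ⟨h1 a, fun ha => ?_⟩
      have := h1 _ ha
      rw [inv_of_orderOf hu, show u * (u * a * u) * u = (u * u) * a * (u * u) by group,
        mul_self_of_orderOf hu, one_mul, mul_one] at this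
      exact this
    have h2 : 2 ∣ Nat.card NR := by
      have := orderOf_dvd_natCard (⟨u, huNR⟩ : NR)
      rwa [Subgroup.orderOf_mk, hu] at this
    rw [hcardNR] at h2
    refine (Nat.prime_two.dvd_mul.mp h2).resolve_left fun hd => ?_
    obtain ⟨k, hk⟩ := IsPGroup.iff_card.mp R.isPGroup'
    exact h.r2 ((Nat.prime_dvd_prime_iff_eq Nat.prime_two h.hr).mp
      (Nat.prime_two.dvd_of_dvd_pow (hk ▸ hd))).symm
  have hde2 : 2 * d ≤ e := by
    refine Nat.le_of_dvd (Nat.pos_of_ne_zero fun e0 => ?_)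
      (Nat.Coprime.mul_dvd_of_dvd_of_dvd (Nat.prime_two.coprime_iff_not_dvd.mpr hd2) he2 hde)
    have := hcardNR
    rw [e0, mul_zero] at this
    exact absurd this Nat.card_pos.ne'
  -- elements of order `r` in `N`
  let Y1 : Type _ := {z : G // z ∈ zpowers y ∧ z ≠ 1}
  have hnM : Nat.card N * (r - 1) ≤ Nat.card {w : N // orderOf w = r} * Nat.card H := by
    have hY1 : Nat.card Y1 = r - 1 := by
      rw [show Nat.card Y1 = Nat.card (zpowers y) - 1 from card_ne_one_mem _, hzy]
    have hmem : ∀ (m : N) (z : Y1), (m : G) * z.1 * (m : G)⁻¹ ∈ N := fun m z =>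
      N.mul_mem (N.mul_mem m.2 ((zpowers_le.mpr hyN) z.2.1)) (N.inv_mem m.2)
    have hor : ∀ (m : N) (z : Y1), orderOf (⟨_, hmem m z⟩ : N) = r := fun m z => by
      rw [Subgroup.orderOf_mk, orderOf_conj, ← Nat.card_zpowers, hgen z.1 z.2.1 z.2.2, hzy]
    let F0 : N × Y1 → {w : N // orderOf w = r} := fun a => ⟨⟨_, hmem a.1 a.2⟩, hor a.1 a.2⟩
    let base : {w : N // orderOf w = r} → N := fun w =>
      if hw : ∃ a, F0 a = w then hw.choose.1 else 1
    have hbase : ∀ a, ∃ z : Y1, ((base (F0 a) : N) : G) * z.1 * ((base (F0 a) : N) : G)⁻¹ =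
        (a.1 : G) * a.2.1 * (a.1 : G)⁻¹ := by
      intro a
      have hw : ∃ b, F0 b = F0 a := ⟨a, rfl⟩
      refine ⟨hw.choose.2, ?_⟩
      simp only [base, dif_pos hw]
      exact congrArg (fun w : {w : N // orderOf w = r} => ((w : N) : G)) hw.choose_spec
    have hnorm : ∀ g z z' : G, z ∈ zpowers y → z ≠ 1 → z' ∈ zpowers y → z' ≠ 1 →
        g * z * g⁻¹ = z' → g ∈ normalizer ((zpowers y : Subgroup G) : Set G) := by
      intro g z z' hz hz1 hz' hz1' hgz
      rw [mem_normalizer_iff]
      refine fun a => ⟨fun ha => ?_, fun ha => ?_⟩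
      · rw [← hgen z hz hz1, mem_zpowers_iff] at ha
        obtain ⟨i, rfl⟩ := ha
        rw [← conj_zpow, hgz]
        exact zpow_mem hz' i
      · rw [← hgen z' hz' hz1', mem_zpowers_iff] at ha
        obtain ⟨i, hi⟩ := ha
        rw [← hgz, conj_zpow] at hi
        rw [← mul_left_cancel (mul_right_cancel hi)]
        exact zpow_mem hz i
    have hmemH : ∀ a : N × Y1, ((base (F0 a) : N) : G)⁻¹ * (a.1 : G) ∈ H := by
      intro a
      obtain ⟨z', hz'⟩ := hbase a
      refine ⟨N.mul_mem (N.inv_mem (base (F0 a)).2) a.1.2,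
        hnorm _ a.2.1 z'.1 a.2.2.1 a.2.2.2 z'.2.1 z'.2.2 ?_⟩
      calc ((base (F0 a) : N) : G)⁻¹ * (a.1 : G) * a.2.1 * (((base (F0 a) : N) : G)⁻¹ * a.1)⁻¹
          = ((base (F0 a) : N) : G)⁻¹ * ((a.1 : G) * a.2.1 * (a.1 : G)⁻¹) *
              ((base (F0 a) : N) : G) := by group
        _ = z'.1 := by rw [← hz']; group
    have hle : Nat.card (N × Y1) ≤ Nat.card ({w : N // orderOf w = r} × H) := by
      refine Nat.card_le_card_of_injective (fun a => (F0 a, (⟨_, hmemH a⟩ : H))) ?_
      intro a b e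
      obtain ⟨e1, e2⟩ := Prod.ext_iff.mp e
      replace e2 : ((base (F0 a) : N) : G)⁻¹ * (a.1 : G) = ((base (F0 b) : N) : G)⁻¹ * (b.1 : G) :=
        congrArg (fun z : H => (z : G)) e2
      have e1' : F0 a = F0 b := e1
      rw [e1'] at e2
      have hab : a.1 = b.1 := Subtype.ext (mul_left_cancel e2)
      have e3 : (a.1 : G) * a.2.1 * (a.1 : G)⁻¹ = (b.1 : G) * b.2.1 * (b.1 : G)⁻¹ :=
        congrArg (fun w : {w : N // orderOf w = r} => ((w : N) : G)) e1'
      rw [hab] at e3
      exact Prod.ext hab (Subtype.ext (mul_left_cancel (mul_right_cancel e3)))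
    rwa [Nat.card_prod, Nat.card_prod, hY1] at hle
  -- every other element has a conjugate in `N`
  have hrest : Nat.card {x : G // x ≠ 1 ∧ orderOf x ≠ r} ≤
      N.index * Nat.card {x : N // x ≠ 1 ∧ orderOf x ≠ r} := by
    have hex : ∀ a : {x : G // x ≠ 1 ∧ orderOf x ≠ r},
        ∃ b : (G ⧸ N) × {x : N // x ≠ 1 ∧ orderOf x ≠ r},
          (a : G) = b.1.out * ((b.2 : N) : G) * b.1.out⁻¹ := by
      rintro ⟨a, ha1, har⟩
      obtain ⟨t, ht, hta⟩ : ∃ t : G, orderOf t = 2 ∧ Commute t a := by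
        rcases h.orders a with f | f | f | f | f
        · exact absurd (orderOf_eq_one_iff.mp f) ha1
        · exact ⟨a, f, Commute.refl a⟩
        · exact h.exists_invol_commute f
        · exact absurd f har
        · exact ⟨a ^ p, h.pow_p_two f, (Commute.refl a).pow_left p⟩
      obtain ⟨g, hg, hg1⟩ := conj_into S ht
      have hga : g * a * g⁻¹ ∈ N := hCN _ hg hg1 _ (Commute.conj' hta g)
      set q : G ⧸ N := ((g⁻¹ : G) : G ⧸ N) with hq
      have hm : g * q.out ∈ N := by
        have := QuotientGroup.eq.mp ((QuotientGroup.out_eq' q).trans hq).symm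
        rwa [inv_inv] at this
      have hcon : q.out⁻¹ * a * q.out ∈ N := by
        rw [show q.out⁻¹ * a * q.out = (g * q.out)⁻¹ * (g * a * g⁻¹) * (g * q.out) by group]
        exact N.mul_mem (N.mul_mem (N.inv_mem hm) hga) hm
      refine ⟨(q, ⟨⟨_, hcon⟩, fun f => ha1 ?_, ?_⟩), by group⟩
      · have f' : q.out⁻¹ * a * q.out⁻¹⁻¹ = 1 := by rw [inv_inv]; exact congrArg Subtype.val f
        exact conj_eq_one_iff.mp f'
      · rw [Subgroup.orderOf_mk, show q.out⁻¹ * a * q.out = q.out⁻¹ * a * q.out⁻¹⁻¹ by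
          rw [inv_inv], orderOf_conj]
        exact har
    choose f hf using hex
    have := Nat.card_le_card_of_injective f (fun a b e => Subtype.ext (by rw [hf a, hf b, e]))
    rwa [Nat.card_prod, ← index_eq_card] at this
  have hG := card_split (H := G) h.hr.ne_one
  have hM := card_split (H := N) h.hr.ne_one
  have hidx : N.index * Nat.card N = Nat.card G := by
    rw [mul_comm]; exact N.card_mul_index
  have hnr := h.card_r_le R
  have hZR : Nat.card (center (R : Subgroup G)) ≤ Nat.card (R : Subgroup G) :=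
    Nat.le_of_dvd Nat.card_pos (card_subgroup_dvd_card _)
  set nr := Nat.card {x : G // orderOf x = r} with hnr_def
  set nM := Nat.card {w : N // orderOf w = r}
  have hNr : N.index * nM ≤ nr := by
    have h0 : 0 < N.index := Nat.pos_of_ne_zero index_ne_zero_of_finite
    rw [hM, mul_add, mul_add, mul_one] at hidx
    omega
  rw [hcardH] at hnM
  rw [← hNR, hcardNR] at hnr
  have hR0 : 0 < Nat.card (R : Subgroup G) := Nat.card_pos
  have hGpos : 0 < Nat.card G := Nat.card_pos
  have h6 : 2 * d * nr < Nat.card G := by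
    refine Nat.lt_of_mul_lt_mul_left (a := Nat.card (R : Subgroup G)) ?_
    calc Nat.card (R : Subgroup G) * (2 * d * nr)
        = Nat.card (R : Subgroup G) * (2 * d) * nr := by ring
      _ ≤ Nat.card (R : Subgroup G) * e * nr :=
          Nat.mul_le_mul_right _ (Nat.mul_le_mul_left _ hde2)
      _ ≤ Nat.card G * (Nat.card (center (R : Subgroup G)) - 1) := hnr
      _ < Nat.card G * Nat.card (R : Subgroup G) := Nat.mul_lt_mul_of_pos_left (by omega) hGpos
      _ = _ := mul_comm _ _
  have h7 : Nat.card G * (r - 1) ≤ nr * (r * d) :=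
    calc Nat.card G * (r - 1) = N.index * (Nat.card N * (r - 1)) := by rw [← hidx, mul_assoc]
      _ ≤ N.index * (nM * (r * d)) := Nat.mul_le_mul_left _ hnM
      _ = N.index * nM * (r * d) := by ring
      _ ≤ _ := Nat.mul_le_mul_right _ hNr
  have h8 : 2 * (Nat.card G * (r - 1)) < r * Nat.card G :=
    calc 2 * (Nat.card G * (r - 1)) ≤ 2 * (nr * (r * d)) := Nat.mul_le_mul_left _ h7
      _ = r * (2 * d * nr) := by ring
      _ < r * Nat.card G := Nat.mul_lt_mul_of_pos_left h6 h.hr.pos
  have h3 := h.r_three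
  obtain ⟨r', rfl⟩ : ∃ r', r = r' + 3 := ⟨r - 3, by omega⟩
  rw [show r' + 3 - 1 = r' + 2 by omega] at h8
  nlinarith [h8]

end Hyp

end Cfsg.Agent.FiveOrbit
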