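import Cfsg.Agent.FiveOrbit.Basic
import Cfsg.Agent.Signalizer.Generation

/-!
The Sylow 2-subgroup and its hyperplanes.
-/

set_option autoImplicit false

namespace Cfsg.Agent.FiveOrbit

open Subgroup

theorem card_ne_one_mem {G : Type*} [Group G] [Finite G] (H : Subgroup G) :
    Nat.card {s : G // s ∈ H ∧ s ≠ 1} = Nat.card H - 1 := by
  classical
  haveI := Fintype.ofFinite H
  have h1 : Nat.card {s : G // s ∈ H ∧ s ≠ 1} = Nat.card {s : H // s ≠ 1} :=
    Nat.card_congr
      { toFun := fun s => ⟨⟨s.1, s.2.1⟩, fun e => s.2.2 (congrArg Subtype.val e)⟩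
        invFun := fun s => ⟨(s.1 : G), s.1.2, fun e => s.2 (Subtype.ext e)⟩
        left_inv := fun s => rfl
        right_inv := fun s => rfl }
  rw [h1, Nat.card_eq_fintype_card, Nat.card_eq_fintype_card]
  simp [Fintype.card_subtype_compl]

namespace Hyp

variable {G : Type*} [Group G] [Finite G] {p r : ℕ} (h : Hyp G p r) (S : Sylow 2 G)
include h

theorem sylow_orderOf {s : G} (hs : s ∈ (S : Subgroup G)) (hs1 : s ≠ 1) : orderOf s = 2 :=
  orderOf_two (h.two_group_sq S.isPGroup' hs) hs1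

theorem sylow_commute {a b : G} (ha : a ∈ (S : Subgroup G)) (hb : b ∈ (S : Subgroup G)) :
    Commute a b :=
  h.two_group_comm S.isPGroup' ha hb

theorem sylow_le_centralizer : (S : Subgroup G) ≤ centralizer ((S : Subgroup G) : Set G) :=
  fun _a ha => mem_centralizer_iff.mpr fun _b hb => h.sylow_commute S hb ha

omit h in
theorem conj_into [Fact (Nat.Prime 2)] {t : G} (ht : orderOf t = 2) :
    ∃ g : G, g * t * g⁻¹ ∈ (S : Subgroup G) ∧ g * t * g⁻¹ ≠ 1 := by
  obtain ⟨g, hg⟩ := exists_conj_sylow S (isPGroup_zpowers_of_orderOf ht)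
  exact ⟨g, hg t (mem_zpowers t), fun e => ne_one_of_orderOf ht one_lt_two (conj_eq_one_iff.mp e)⟩

omit h in
theorem involution_mem {u : G} (hu : u * u = 1)
    (hn : u ∈ normalizer ((S : Subgroup G) : Set G)) : u ∈ (S : Subgroup G) :=
  FGS75.SelfNorm.mem_sylow_of_mem_normalizer (k := 1) (by rw [pow_one, pow_two, hu]) hn

/-- A nontrivial odd group normalised by the Sylow 2-subgroup has a nontrivial element fixed by a
hyperplane. -/
theorem exists_fixed_by_half {X : Subgroup G}
    (hSX : (S : Subgroup G) ≤ normalizer (X : Set G)) (h2 : ¬ 2 ∣ Nat.card X) (hne : X ≠ ⊥) :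
    ∃ B : Subgroup G, B ≤ (S : Subgroup G) ∧ Nat.card (S : Subgroup G) ≤ 2 * Nat.card B ∧
      ∃ k ∈ X, k ≠ 1 ∧ ∀ b ∈ B, Commute b k := by
  haveI : Fact (Nat.Prime 2) := ⟨Nat.prime_two⟩
  by_contra hcon
  apply hne
  rw [eq_bot_iff]
  refine Signalizer.le_of_forall_hyperplane (p := 2) (h.elemAb_two S.isPGroup') hSX h2 ?_
  intro B hB hi k hk
  rw [Subgroup.mem_bot]
  by_contra hk1
  refine hcon ⟨B, hB, ?_, k, hk.1, hk1, fun b hb => mem_centralizer_iff.mp hk.2 b hb⟩
  have := Subgroup.relIndex_mul_relIndex ⊥ B (S : Subgroup G) bot_le hB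
  rw [Subgroup.relIndex_bot_left, Subgroup.relIndex_bot_left] at this
  rw [← this, mul_comm 2]
  exact Nat.mul_le_mul_left _ hi

omit h in
theorem odd_orderOf_mem {X : Subgroup G} (h2 : ¬ 2 ∣ Nat.card X) {k : G} (hk : k ∈ X) :
    Odd (orderOf k) := by
  rw [Nat.odd_iff]
  refine Nat.two_dvd_ne_zero.mp fun hd => h2 (hd.trans ?_)
  rw [← Subgroup.orderOf_mk k hk]
  exact orderOf_dvd_natCard _

theorem three_le_relIndex [IsSimpleGroup G] :
    3 ≤ (centralizer ((S : Subgroup G) : Set G)).relIndex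
      (normalizer ((S : Subgroup G) : Set G)) := by
  haveI : Fact (Nat.Prime 2) := ⟨Nat.prime_two⟩
  set N := normalizer ((S : Subgroup G) : Set G)
  set C := centralizer ((S : Subgroup G) : Set G)
  have hd : C.relIndex N ∣ (S : Subgroup G).index :=
    (relIndex_dvd_of_le_left N (h.sylow_le_centralizer S)).trans (dvd_of_mul_right_eq _
      (relIndex_mul_index (le_normalizer (H := (S : Subgroup G)))))
  have hodd : ¬ 2 ∣ C.relIndex N := fun h2 => S.not_dvd_index (h2.trans hd)
  have hne : C.relIndex N ≠ 1 := fun e =>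
    h.not_normalizer_le S h.two_dvd_card (relIndex_eq_one.mp e)
  have h0 : C.relIndex N ≠ 0 := fun e => hodd (e ▸ dvd_zero 2)
  omega

end Hyp

end Cfsg.Agent.FiveOrbit
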